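import Cfsg.Agent.Lib.SPL.Def
import Cfsg.Agent.Lib.GLC.Ord2
import Cfsg.Agent.Lib.Unitary.Wall5

/-!
# S3586: the eigenvalues of an element of `SLₙ(q)` or `SUₙ(q)`
-/

set_option autoImplicit false

namespace Cfsg.Lib.SPL

open Matrix Polynomial

/-- `χ = g.charpoly` splits, its roots are nonzero (`det_eq_prod_roots_charpoly`); `R` = the roots as units (`Multiset.pmap` with
`Units.mk0`, or `CanLift`).  For `m = 0` take `l = 1`.  Else let `λ` be the common value of the `a ^ m` (`R = 0`: `n = 0`, trivial).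
`χ = ∏ (X - C a)` divides `(∏ a ∈ toFinset, (X - C a)) ^ p ^ c` (counts), which divides `(X ^ m - C λ) ^ p ^ c =
X ^ (m * p ^ c) - C (λ ^ p ^ c)` (`sub_pow_char_pow`); Cayley-Hamilton `aeval_self_charpoly`. -/
theorem ev_mat {K : Type*} [Field K] [IsAlgClosed K] [DecidableEq Kˣ] {p : ℕ} [CharP K p] (hp : p.Prime) {n : ℕ}
    (g : Matrix (Fin n) (Fin n) K) (h1 : g.det = 1) :
    ∃ R : Multiset Kˣ, R.map Units.val = g.charpoly.roots ∧ R.card = n ∧ R.prod = 1 ∧
      ∀ m c : ℕ, (∀ a ∈ R, ∀ b ∈ R, a ^ m = b ^ m) → (∀ a ∈ R, R.count a ≤ p ^ c) → ∃ l : K, g ^ (m * p ^ c) = l • 1 := by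
  classical
  have := Fact.mk hp
  have sp : g.charpoly.Splits := IsAlgClosed.splits _
  have mo := g.charpoly_monic
  have pr : g.charpoly.roots.prod = 1 := by rw [← det_eq_prod_roots_charpoly_of_splits sp, h1]
  have h0 : ∀ a ∈ g.charpoly.roots, a ≠ 0 := fun a ha e =>
    zero_ne_one ((Multiset.prod_eq_zero (e ▸ ha)).symm.trans pr)
  have e : (g.charpoly.roots.pmap Units.mk0 h0).map Units.val = g.charpoly.roots := by
    simp [Multiset.map_pmap, Multiset.pmap_eq_map]
  generalize g.charpoly.roots.pmap Units.mk0 h0 = R at e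
  refine ⟨R, e, ?_, ?_, fun m c hm hc => ?_⟩
  · rw [← Multiset.card_map Units.val, e, ← sp.natDegree_eq_card_roots, charpoly_natDegree_eq_dim,
      Fintype.card_fin]
  · apply Units.val_injective
    rw [← Units.coeHom_apply, map_multiset_prod]
    exact (congrArg Multiset.prod e).trans pr
  rcases Nat.eq_zero_or_pos m with rfl | m0
  · exact ⟨1, by simp⟩
  obtain ⟨l, hl⟩ : ∃ l : K, ∀ a ∈ R, (a : K) ^ m = l := by
    rcases R.empty_or_exists_mem with rfl | ⟨b, hb⟩
    · exact ⟨1, by simp⟩
    · exact ⟨(b : K) ^ m, fun a ha => by rw [← Units.val_pow_eq_pow_val, hm a ha b hb, Units.val_pow_eq_pow_val]⟩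
  have n0 : (X ^ m - C l : K[X]) ≠ 0 := X_pow_sub_C_ne_zero m0 l
  have d : g.charpoly ∣ (X ^ m - C l) ^ p ^ c := by
    rw [sp.eq_prod_roots_of_monic mo, Multiset.prod_X_sub_C_dvd_iff_le_roots (pow_ne_zero _ n0), roots_pow, ← e,
      Multiset.le_iff_count]
    intro a
    by_cases ha : a ∈ R.map Units.val
    · obtain ⟨b, hb, rfl⟩ := Multiset.mem_map.1 ha
      rw [Multiset.count_map_eq_count' _ _ Units.val_injective, Multiset.count_nsmul]
      refine (hc b hb).trans (Nat.le_mul_of_pos_right _ (Multiset.count_pos.2 ?_))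
      rw [mem_roots n0]
      simp [hl b hb]
    · simp [Multiset.count_eq_zero_of_notMem ha]
  obtain ⟨u, hu⟩ := d
  have := congrArg (aeval g) hu
  rw [map_mul, aeval_self_charpoly, zero_mul, sub_pow_char_pow, ← pow_mul, ← map_pow, map_sub, map_pow, aeval_X, aeval_C,
    sub_eq_zero, Algebra.algebraMap_eq_smul_one] at this
  exact ⟨_, this⟩

/-- In characteristic `p`, `x ↦ x ^ p ^ k` is injective on `K` (`frobenius`/`sub_pow_char_pow`); for `Q = -p ^ k` take inverses. -/
theorem pow_inj {K : Type*} [Field K] {p k : ℕ} [CharP K p] (hp : p.Prime) {Q : ℤ} (hQ : Q.natAbs = p ^ k) :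
    Function.Injective fun a : Kˣ => a ^ Q := by
  have := Fact.mk hp
  have h : Function.Injective fun a : Kˣ => a ^ p ^ k := fun a b e =>
    Units.val_injective ((iterateFrobenius K p k).injective (by
      simpa [iterateFrobenius_def] using congrArg Units.val e))
  intro a b e
  apply h
  rcases Int.natAbs_eq Q with e' | e' <;> rw [e', hQ] at e
  · simpa only [zpow_natCast] using e
  · simpa only [_root_.zpow_neg, zpow_natCast, _root_.inv_inj] using e

theorem evm_roots_inv {K : Type*} [Field K] [IsAlgClosed K] {n : ℕ} {A B : Matrix (Fin n) (Fin n) K} (h : B * A = 1) :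
    B.charpoly.roots = A.charpoly.roots.map (·⁻¹) := by
  classical
  have sp : A.charpoly.Splits := IsAlgClosed.splits _
  have d0 : A.det ≠ 0 := right_ne_zero_of_mul_eq_one (by rw [← det_mul, h, det_one])
  have pr := det_eq_prod_roots_charpoly_of_splits sp
  have h0 : ∀ a ∈ A.charpoly.roots, a ≠ 0 := fun a ha e => d0 (pr.trans (Multiset.prod_eq_zero (e ▸ ha)))
  have cd : A.charpoly.roots.card = n := by rw [← sp.natDegree_eq_card_roots, charpoly_natDegree_eq_dim, Fintype.card_fin]
  suffices e : B.charpoly = ((A.charpoly.roots.map (·⁻¹)).map (X - C ·)).prod by rw [e, roots_multiset_prod_X_sub_C]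
  refine eq_of_infinite_eval_eq _ _ (((Set.finite_singleton (0 : K)).infinite_compl).mono fun t (ht : t ≠ 0) => ?_)
  refine mul_right_cancel₀ d0 ?_
  have e1 : (scalar (Fin n) t - B) * A = (-t) • (scalar (Fin n) t⁻¹ - A) := by
    rw [sub_mul, h, smul_sub, scalar_apply, scalar_apply, ← smul_one_eq_diagonal, ← smul_one_eq_diagonal, smul_smul,
      smul_mul_assoc, one_mul, neg_mul, mul_inv_cancel₀ ht, neg_smul, neg_smul, one_smul]
    abel
  rw [eval_charpoly, ← det_mul, e1, det_smul, ← eval_charpoly, sp.eval_eq_prod_roots, A.charpoly_monic.leadingCoeff, one_mul,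
    Fintype.card_fin, eval_multiset_prod, Multiset.map_map, Multiset.map_map, pr,
    show (-t) ^ n = (A.charpoly.roots.map fun _ => -t).prod by simp [cd], ← Multiset.prod_map_mul]
  conv_rhs => rw [← Multiset.map_id A.charpoly.roots, Multiset.map_map, ← Multiset.prod_map_mul]
  refine congrArg _ (Multiset.map_congr rfl fun a ha => ?_)
  have := h0 a ha
  simp only [Function.comp, id, eval_sub, eval_X, eval_C]
  field_simp
  ring

theorem evm_scalar {F K : Type*} [Field F] [Field K] [Algebra F K] {n : ℕ} (hn : 2 ≤ n) {g : Matrix (Fin n) (Fin n) F} {k : ℕ}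
    {l : K} (h : g.map (algebraMap F K) ^ k = l • 1) : ∃ c : F, toLin' g ^ k = c • 1 := by
  refine ⟨(g ^ k) ⟨0, by omega⟩ ⟨0, by omega⟩, ?_⟩
  rw [← GLC.toLin'_pow', GLC.toLin'_eq_smul_one_iff]
  rw [← RingHom.mapMatrix_apply, ← map_pow, RingHom.mapMatrix_apply] at h
  ext i j
  apply (algebraMap F K).injective
  have h1 := congrFun (congrFun h i) j
  have h2 := congrFun (congrFun h ⟨0, by omega⟩) ⟨0, by omega⟩
  simp only [map_apply, Matrix.smul_apply, one_apply_eq, smul_eq_mul, mul_one] at h1 h2
  rw [h1, Matrix.smul_apply, smul_eq_mul, map_mul, h2]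
  by_cases e : i = j <;> simp [one_apply, e]

theorem evm_frob {K : Type*} [Field K] [IsAlgClosed K] {p : ℕ} [CharP K p] (hp : p.Prime) {n : ℕ} (k : ℕ)
    (g : Matrix (Fin n) (Fin n) K) : (g.map (· ^ p ^ k)).charpoly.roots = g.charpoly.roots.map (· ^ p ^ k) := by
  have := Fact.mk hp
  have := (IsAlgClosed.splits g.charpoly).roots_map (iterateFrobenius K p k)
  rwa [← charpoly_map] at this

/-- `x = mk g`, `ev_mat` for `g.map (algebraMap F K)`.  `frob`: `φ = iterateFrobenius K p k` (`card F = p ^ k`) fixes the coefficients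
of the characteristic polynomial (`FiniteField.pow_card`, `charpoly_map`), `roots_map`-type lemma
(`Polynomial.Splits.roots_map` / `map_roots_of_injective`), then injectivity of `Units.val` (`Multiset.map_injective`).
`ord`: a matrix over `F` that becomes scalar over `K` is scalar; `GLC.orderOf_psl_dvd_iff`. -/
theorem ev_psl {F : Type*} [Field F] [Fintype F] [DecidableEq (AlgebraicClosure F)ˣ] {p : ℕ} [CharP F p] (hp : p.Prime) {n : ℕ}
    (hn : 2 ≤ n) (x : ProjectiveSpecialLinearGroup (Fin n) F) :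
    ∃ R : Multiset (AlgebraicClosure F)ˣ, Ev n (Fintype.card F) p (orderOf x) R := by
  have := Fact.mk hp
  obtain ⟨k, -, hk⟩ := FiniteField.card F p
  have : CharP (AlgebraicClosure F) p := charP_of_injective_algebraMap (algebraMap F _).injective p
  induction x using QuotientGroup.induction_on with | H g => ?_
  obtain ⟨R, e, h1, h2, h3⟩ := ev_mat hp (g.1.map (algebraMap F (AlgebraicClosure F))) (by
    rw [← RingHom.mapMatrix_apply, ← RingHom.map_det, g.2, map_one])
  refine ⟨R, hp, ?_, ?_, h1, ?_, pow_inj hp (k := k) (by simp [hk]), h2, fun m c a b => ?_⟩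
  · rw [hk]; exact_mod_cast dvd_pow_self p k.ne_zero
  · exact Fintype.one_lt_card
  · have := evm_frob hp k (g.1.map (algebraMap F (AlgebraicClosure F)))
    rw [show (g.1.map (algebraMap F (AlgebraicClosure F))).map (· ^ p ^ (k : ℕ)) = g.1.map (algebraMap F _) from by
      ext i j; simp only [map_apply]; rw [← map_pow, ← hk, FiniteField.pow_card], ← e] at this
    apply Multiset.map_injective Units.val_injective
    rw [this, Multiset.map_map, Multiset.map_map, hk]
    simp only [Function.comp_def, zpow_natCast, Units.val_pow_eq_pow_val]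
  · obtain ⟨l, hl⟩ := h3 m c a b
    exact GLC.orderOf_psl_dvd_iff.2 (evm_scalar hn hl)

/-- As `ev_psl` (`Unitary.IsBar`, `IsBar.orderOf_psu_dvd_iff`, see `S2496.lean`).  `frob`: for `g ∈ SU`, `(g.map σ)ᵀ * g = 1` (or the
variant given by `hermForm`), so over `K` the matrix `g.map φ`, `φ x = x ^ q`, has the characteristic polynomial of `g⁻¹`.  The roots
of the former are the `a ^ q`, those of the latter the `a⁻¹` (`charpoly_inv`, `roots` of `reverse`; or triangularise; or use
`Unitary.SD`/`dual`).  So `R.map (· ^ q) = R.map (·⁻¹)`, apply `map (·⁻¹)`. -/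
theorem ev_psu {F : Type*} [Field F] [Fintype F] [DecidableEq (AlgebraicClosure F)ˣ] {p q : ℕ} [CharP F p] (hp : p.Prime)
    (hF : Fintype.card F = q ^ 2) {n : ℕ} (hn : 2 ≤ n) (x : PSU n F q) :
    ∃ R : Multiset (AlgebraicClosure F)ˣ, Ev n (-q) p (orderOf x) R := by
  have := Fact.mk hp
  obtain ⟨σ, hσ⟩ := Unitary.exists_isBar hF
  obtain ⟨p', k, hp', hc, k1, rfl⟩ := Unitary.exists_prime_pow_of_card hF
  obtain rfl : p' = p := CharP.eq F hc ‹CharP F p›
  have : CharP (AlgebraicClosure F) p' := charP_of_injective_algebraMap (algebraMap F _).injective p'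
  induction x using QuotientGroup.induction_on with | H g => ?_
  obtain ⟨R, e, h1, h2, h3⟩ := ev_mat hp (g.1.1.map (algebraMap F (AlgebraicClosure F))) (by
    rw [← RingHom.mapMatrix_apply, ← RingHom.map_det, g.1.2, map_one])
  refine ⟨R, hp, ?_, ?_, h1, ?_, pow_inj hp (k := k) (by simp), h2, fun m c a b => ?_⟩
  · rw [dvd_neg]; exact_mod_cast dvd_pow_self p' (by omega)
  · rw [Int.natAbs_neg, Int.natAbs_natCast]; exact Nat.one_lt_pow (by omega) hp.one_lt
  · have h4 : ((g.1.1.map (algebraMap F (AlgebraicClosure F))).map (· ^ p' ^ k))ᵀ * g.1.1.map (algebraMap F _) = 1 := by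
      ext i j
      have := g.2 (Pi.single j 1) (Pi.single i 1)
      simp only [hermForm, slToMat, MonoidHom.coe_mk, OneHom.coe_mk, mulVec_single_one, ← hσ.eq] at this
      have := congrArg (algebraMap F (AlgebraicClosure F)) this
      simp only [map_sum, map_mul] at this
      simp only [mul_apply, transpose_apply, map_apply, ← map_pow, ← hσ.eq]
      refine (Finset.sum_congr rfl fun l _ => mul_comm _ _).trans (this.trans ?_)
      by_cases e : i = j <;> simp [Pi.single_apply, one_apply, e, eq_comm]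
    have := evm_roots_inv h4
    rw [charpoly_transpose, evm_frob hp, ← e] at this
    apply Multiset.map_injective Units.val_injective
    have := congrArg (Multiset.map (·⁻¹)) this
    simp only [Multiset.map_map, Function.comp_def, _root_.inv_inv] at this
    rw [← this, Multiset.map_map]
    simp only [Function.comp_def, _root_.zpow_neg, zpow_natCast, Units.val_inv_eq_inv_val, Units.val_pow_eq_pow_val]
  · obtain ⟨l, hl⟩ := h3 m c a b
    exact (hσ.orderOf_psu_dvd_iff hn).2 (evm_scalar hn hl)

end Cfsg.Lib.SPL
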