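import Cfsg.Agent.Lib.SPL.Def
import Cfsg.Agent.Lib.GLC.Ord2
import Cfsg.Agent.Lib.Unitary.Wall5

/-!
# S3586: elements of given order in `Uₙ(q)` (helper27)
-/

set_option autoImplicit false

namespace Cfsg.Lib.SPL

open Matrix Module Cfsg.Lib.Spec Cfsg.Lib.GLC Cfsg.Lib.Unitary

variable {F : Type*} [Field F] {n i m q : ℕ} {σ : F →+* F} {V : Type*} [AddCommGroup V] [Module F V]
  [Module.Finite F V] {f : End F V}

theorem exu_det (hσ : IsBar q σ) (hf : SD σ f) : LinearMap.det f * σ (LinearMap.det f) = 1 := by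
  obtain ⟨g, hg⟩ := hσ.exists_gu_sim hf rfl
  rw [← hg.det_eq, LinearMap.det_toLin', ← hσ.detGU_coe]
  exact (hσ.detGU _ g).2

theorem exu_a (hσ : IsBar q σ) (hn : 2 ≤ n) (hf : SD σ f) (h0 : 0 < finrank F V) (hi : finrank F V ≤ n)
    (e : f ^ m = 1) (c : m.Coprime (q + 1)) (h : ∀ k (c : F), c * σ c = 1 → f ^ k = c • 1 → m ∣ k * (q + 1)) :
    m ∈ sp (PSU n F q) := by
  have := hσ.finite
  have : Nontrivial V := Module.nontrivial_of_finrank_pos h0
  have d1 : LinearMap.det f ^ m = 1 := by rw [← map_pow, e, map_one]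
  have d2 : LinearMap.det f ^ (q + 1) = 1 := by rw [pow_succ', ← hσ.eq, exu_det hσ hf]
  have d : LinearMap.det f = 1 := (pow_eq_one_iff_of_coprime c).1 ⟨d1, d2⟩
  obtain ⟨g, hg⟩ := hσ.exists_psu_dvd_orderOf hn (m := m)
    (hf.prodMap (hσ.sd_smul_one (V := Fin (n - finrank F V) → F) (c := 1) (by simp))) (by simp; omega)
    (by rw [LinearMap.det_prodMap, d, det_smul_one]; simp) fun k x hx => by
      have h1 := (prodMap_pow_eq_smul_one_iff.1 hx).1
      exact c.dvd_of_dvd_mul_right (h k x (hσ.norm_eq_one_of_pow hf h1) h1)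
  exact mem_sp_of_dvd_orderOf g hg

theorem exu_b (hσ : IsBar q σ) (hf : SD σ f) (hi : finrank F V + 2 ≤ n) (h : ∀ k, f ^ k = 1 → m ∣ k) :
    m ∈ sp (PSU n F q) := by
  have := hσ.finite
  have d := exu_det hσ hf
  have d0 : LinearMap.det f ≠ 0 := left_ne_zero_of_mul_eq_one d
  obtain ⟨j, rfl⟩ : ∃ j, n = finrank F V + 1 + (j + 1) := ⟨n - (finrank F V + 2), by omega⟩
  obtain ⟨g, hg⟩ := hσ.exists_psu_dvd_orderOf (n := finrank F V + 1 + (j + 1)) (by omega) (m := m)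
    ((hf.prodMap (hσ.sd_smul_one (V := F) (c := (LinearMap.det f)⁻¹) (by rw [map_inv₀, ← mul_inv, d, inv_one]))).prodMap
      (hσ.sd_smul_one (V := Fin (j + 1) → F) (c := 1) (by simp))) (by simp)
    (by rw [LinearMap.det_prodMap, LinearMap.det_prodMap, det_smul_one, det_smul_one]; simp [d0]) fun k x hx => by
      obtain ⟨h1, h2⟩ := prodMap_pow_eq_smul_one_iff.1 hx
      rw [smul_one_pow_eq_iff, one_pow] at h2
      subst h2
      exact h k (by simpa using (prodMap_pow_eq_smul_one_iff.1 h1).1)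
  exact mem_sp_of_dvd_orderOf g hg

variable [Fintype F]

theorem ex_psu' (hF : Fintype.card F = q ^ 2) (hn : 2 ≤ n) (h0 : 0 < i) (hi : i ≤ n) (d : m ∣ w (-q) i)
    (c : m.Coprime (w (-q) 1)) : m ∈ sp (PSU n F q) := by
  obtain ⟨σ, hσ⟩ := exists_isBar hF
  have h2 := hσ.two_le
  have c' : m.Coprime (q + 1) := by
    have : w (-q) 1 = q + 1 := by unfold w; rw [pow_one]; omega
    rwa [this] at c
  rcases Nat.even_or_odd i with ⟨j, rfl⟩ | ho
  · obtain ⟨K, _, _, _, hK, hK'⟩ := hσ.exists_ext (n := j) (by omega)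
    have d' : m ∣ Nat.card K - 1 := by
      have : w (-q) (j + j) = q ^ (2 * j) - 1 := by
        have h1 : 1 ≤ q ^ (2 * j) := Nat.one_le_pow _ _ (by omega)
        unfold w
        rw [Even.neg_pow ⟨j, rfl⟩, ← two_mul, ← Int.natAbs_natCast (q ^ (2 * j) - 1)]
        congr 1; push_cast [h1]; ring
      rwa [hK', ← this]
    obtain ⟨a, ha, ha'⟩ := exists_orderOf_eq (K := K) d'
    have e : a ^ m = 1 := ha' ▸ pow_orderOf_eq_one a
    refine exu_a hσ hn (hσ.sd_lmul_prodMap ha) (by simp [hK]; omega) (by simp [hK]; omega) ?_ c' fun k x _ hx => ?_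
    · rw [← one_smul F (1 : End F (K × K)), prodMap_pow_eq_smul_one_iff, lmul_pow_eq_smul_one_iff,
        lmul_pow_eq_smul_one_iff, inv_pow, pow_right_comm, e]
      simp
    · simp only [prodMap_pow_eq_smul_one_iff, lmul_pow_eq_smul_one_iff] at hx
      rw [← ha', orderOf_dvd_iff_pow_eq_one, mul_add, mul_one, pow_add, mul_comm k q, pow_mul, hx.1, ← hx.2, inv_pow,
        mul_inv_cancel₀ (by simp [ha])]
  · obtain ⟨K, _, _, _, hK, hK'⟩ := hσ.exists_ext (n := i) (by omega)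
    have d1 : m ∣ q ^ i + 1 := by
      have : w (-q) i = q ^ i + 1 := by
        unfold w
        rw [ho.neg_pow, ← Int.natAbs_neg, ← Int.natAbs_natCast (q ^ i + 1)]
        congr 1; push_cast; ring
      rwa [this] at d
    have d' : m ∣ Nat.card K - 1 := by
      rw [hK', pow_mul', ← one_pow 2, Nat.sq_sub_sq]; exact d1.mul_right _
    obtain ⟨a, ha, ha'⟩ := exists_orderOf_eq (K := K) d'
    have e : a ^ m = 1 := ha' ▸ pow_orderOf_eq_one a
    refine exu_a hσ hn (hσ.sd_lmul ho (orderOf_dvd_iff_pow_eq_one.1 (ha' ▸ d1))) (by omega) (by omega) ?_ c'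
      fun k x h1 hx => ?_
    · rw [← map_pow, e, map_one]
    · rw [lmul_pow_eq_smul_one_iff] at hx
      rw [← ha', orderOf_dvd_iff_pow_eq_one, pow_mul, hx, ← map_pow, pow_succ', ← hσ.eq, h1, map_one]

theorem ex62_8' (hF : Fintype.card F = 2 ^ 2) : 8 ∈ sp (PSU 6 F 2) := by
  obtain ⟨σ, hσ⟩ := exists_isBar hF
  have := hσ.finite
  have : CharP F 2 := charP_of_card_eq_prime_pow hF
  obtain ⟨g, hg⟩ := hσ.exists_su_jt (n := 6) (d := {6}) (by simp)
  obtain ⟨c, hc⟩ := (hσ.orderOf_psu_dvd_iff (by omega) (g := g)).1 dvd_rfl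
  have := hg.pow_clog_dvd 2 (hσ.sd_su g).1 (Polynomial.irreducible_X_sub_C 1) (e := 6) (by simp [jt]) hc
  exact mem_sp_of_dvd_orderOf _ ((by decide : 8 ∣ 2 ^ Nat.clog 2 6).trans this)

theorem ex62_9' (hF : Fintype.card F = 2 ^ 2) : 9 ∈ sp (PSU 6 F 2) := by
  obtain ⟨σ, hσ⟩ := exists_isBar hF
  obtain ⟨K, _, _, _, hK, hK'⟩ := hσ.exists_ext (n := 3) (by omega)
  obtain ⟨a, ha, ha'⟩ := exists_orderOf_eq (K := K) (m := 9) (by rw [hK']; decide)
  refine exu_b hσ (hσ.sd_lmul (a := a) (j := 3) (by decide) (orderOf_dvd_iff_pow_eq_one.1 (by rw [ha']; decide)))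
    (by omega) fun k hk => ?_
  rw [← one_smul F (1 : End F K), lmul_pow_eq_smul_one_iff, map_one] at hk
  exact ha' ▸ orderOf_dvd_of_pow_eq_one hk

theorem ex62_15' (hF : Fintype.card F = 2 ^ 2) : 15 ∈ sp (PSU 6 F 2) := by
  obtain ⟨σ, hσ⟩ := exists_isBar hF
  obtain ⟨K, _, _, _, hK, hK'⟩ := hσ.exists_ext (n := 2) (by omega)
  obtain ⟨a, ha, ha'⟩ := exists_orderOf_eq (K := K) (m := 15) (by rw [hK']; decide)
  refine exu_b hσ (hσ.sd_lmul_prodMap ha) (by simp [hK]) fun k hk => ?_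
  rw [← one_smul F (1 : End F (K × K)), prodMap_pow_eq_smul_one_iff, lmul_pow_eq_smul_one_iff, map_one] at hk
  exact ha' ▸ orderOf_dvd_of_pow_eq_one hk.1

end Cfsg.Lib.SPL
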