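import Cfsg.Agent.Lib.SPL.ExL
import Cfsg.Agent.Lib.SPL.ExU
import Cfsg.Agent.Lib.GLC.Ord2
import Cfsg.Agent.Lib.Unitary.Wall5

/-!
# S3586: elements of given order in `Lₙ(q)` and `Uₙ(q)`
-/

set_option autoImplicit false

namespace Cfsg.Lib.SPL

open Matrix Cfsg.Lib.Spec

variable {F : Type*} [Field F] [Fintype F] {n i m p q : ℕ}

/-- `GLC.exists_psl_of_coprime` in dimension `i`, `GLC.exists_psl_of_le`, `mem_sp_of_dvd_orderOf`; `w q d = q ^ d - 1`. -/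
theorem ex_psl (h0 : 0 < i) (hi : i ≤ n) (d : m ∣ w (Fintype.card F) i) (c : m.Coprime (w (Fintype.card F) 1)) :
    m ∈ sp (ProjectiveSpecialLinearGroup (Fin n) F) := by
  exact ex_psl' h0 hi d c

/-- `GLC.exists_psl_char` -/
theorem exp_psl [CharP F p] (hp : p.Prime) (hn : 2 ≤ n) : p ∈ sp (ProjectiveSpecialLinearGroup (Fin n) F) := by
  exact exp_psl' hp hn

/-- `IsBar.exists_psu_dvd_orderOf` (`Lib/Unitary/Wall4`, model `S2496.lean`).  `w (-q) 1 = q + 1`.  `i` odd: `m ∣ q ^ i + 1`, `K` of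
degree `i` over `F` (`IsBar.exists_ext`), `a ∈ K` of order `m`, `f₀ = lmul a` (`sd_lmul`).  `i = 2 j`: `m ∣ q ^ (2 j) - 1`, `K` of
degree `j`, `f₀ = (lmul a).prodMap (lmul (a ^ q)⁻¹)` (`sd_lmul_prodMap`).  `δ = det f₀` has `δ ^ m = 1` and `δ ^ (q + 1) = 1`
(norm 1), so `δ = 1`.  `f = f₀.prodMap 1` on `n - i` more dimensions (`sd_smul_one`, `SD.prodMap`).  If `f ^ k = c • 1` then
`c * σ c = 1` (`norm_eq_one_of_pow`), `a ^ (k * (q + 1)) = 1`, `m ∣ k`. -/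
theorem ex_psu (hF : Fintype.card F = q ^ 2) (hn : 2 ≤ n) (h0 : 0 < i) (hi : i ≤ n) (d : m ∣ w (-q) i) (c : m.Coprime (w (-q) 1)) :
    m ∈ sp (PSU n F q) := by
  exact ex_psu' hF hn h0 hi d c

/-- A unipotent element with Jordan blocks `2, 1, …, 1` (`sd_jt` with `c = 1`), or Cauchy (`prime_mem_sp_iff`) with the order
formula of `PSU`. -/
theorem exp_psu [CharP F p] (hp : p.Prime) (hF : Fintype.card F = q ^ 2) (hn : 2 ≤ n) : p ∈ sp (PSU n F q) := by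
  exact exp_psu' hp hF hn

/-- `IsBar.exists_psu_dvd_orderOf`.  8: the unipotent element with one Jordan block of size 6 (`sd_jt`, `c = 1`,
`GLC.pow_clog_dvd_of_dvd`). -/
theorem ex62_8 (hF : Fintype.card F = 2 ^ 2) : 8 ∈ sp (PSU 6 F 2) := by
  exact ex62_8' hF

/-- `a` of order 9 in the cubic extension (`a ^ (2 ^ 3 + 1) = 1`, `sd_lmul`), `δ = det (lmul a)` has norm 1;
`f = lmul a ⊕ δ⁻¹ • 1₁ ⊕ 1₂`.  `f ^ k = c • 1` forces `c = 1`, `a ^ k = 1`. -/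
theorem ex62_9 (hF : Fintype.card F = 2 ^ 2) : 9 ∈ sp (PSU 6 F 2) := by
  exact ex62_9' hF

/-- `a` of order 15 in the quadratic extension of `F`, `f = (lmul a ⊕ lmul (a ^ 2)⁻¹) ⊕ δ⁻¹ • 1₁ ⊕ 1₁` (`sd_lmul_prodMap`). -/
theorem ex62_15 (hF : Fintype.card F = 2 ^ 2) : 15 ∈ sp (PSU 6 F 2) := by
  exact ex62_15' hF

end Cfsg.Lib.SPL
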