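import Cfsg.Agent.Lib.SPL.Orb

/-!
# S3586: bounds for element orders from the eigenvalues, II
-/

set_option autoImplicit false

namespace Cfsg.Lib.SPL.Ev

variable {A : Type*} [CommGroup A] [DecidableEq A] {n p o r : ℕ} {Q : ℤ} {R : Multiset A}

omit [DecidableEq A] in
theorem ub_mem {a x : A} {d : ℕ} (hx : x ∈ orb Q a d) : ∃ i : ℕ, x = a ^ Q ^ i :=
  let ⟨i, _, e⟩ := Multiset.mem_map.1 hx; ⟨i, e.symm⟩

/-- two orbits, the second of length one, that exhaust `R` -/
theorem ub_two (h : Ev n Q p o R) {a b : A} {d : ℕ} (hd : Per Q a d) (he : Per Q b 1) (hb : b ∉ orb Q a d)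
    (ca : R.count a = 1) (E : d + R.count b = n) :
    a ^ (∑ i ∈ Finset.range d, Q ^ i) * b ^ R.count b = 1 ∧ ∀ x ∈ R, (∃ i : ℕ, x = a ^ Q ^ i) ∨ x = b := by
  have o1 : orb Q b 1 = {b} := by simp [orb]
  have l := h.orb_le2 hd he hb
  rw [ca, one_smul, o1] at l
  have e := Multiset.eq_of_le_of_card_le l (by simp [card_orb, h.card, E])
  refine ⟨?_, fun x hx => ?_⟩
  · have := h.prod
    rwa [← e, Multiset.prod_add, prod_orb, Multiset.prod_nsmul, Multiset.prod_singleton] at this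
  · rw [← e, Multiset.mem_add] at hx
    exact hx.imp ub_mem fun k => Multiset.mem_singleton.1 (Multiset.mem_of_mem_nsmul k)

/-- `a` from `exists_eig` has period `d = n - 1 ≥ 3`, `count a R = 1` (`mul_le`), `R = orb Q a d + {b}` (`orb_le`, cards).
`b ∉ orb Q a d` (members of the orbit have count `count a R = 1` by `count_pow`), so all counts are `≤ p ^ 0`.
`s = ∑ i < d, Q ^ i`, `a ^ s * b = 1`, `a ^ w Q d = 1`.  `g = gcd n (w Q 1)` divides `Q - 1` and `s + 1` (`s ≡ d mod (Q - 1)`),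
`m = tm n Q`, `m * g = w Q d`.  So `(a ^ Q ^ i) ^ m = a ^ m` and `b ^ m = a ^ (-s * m) = a ^ m`.  `h.ord m 0`. -/
theorem u5 (h : Ev n Q p o R) (hn : 4 ≤ n) (d : r ∣ o) (hr : IsPrimePow r) (c : r.Coprime p)
    (k : ∀ d ≤ n, 0 < d → r ∣ w Q d → d + 1 = n) : o ∣ tm n Q := by
  obtain ⟨a, ha, e, he, re⟩ := h.exists_eig d hr c
  have c1 : 0 < R.count a := Multiset.count_pos.2 ha
  have l := h.mul_le he
  have en : e + 1 = n := k e (by nlinarith) he.pos re
  have ca : R.count a = 1 := by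
    by_contra x
    have : 2 * e ≤ R.count a * e := Nat.mul_le_mul_right _ (by omega)
    omega
  have le := h.orb_le he
  rw [ca, one_smul] at le
  obtain ⟨T, hT⟩ := Multiset.le_iff_exists_add.1 le
  have cT : T.card = 1 := by
    have := congrArg Multiset.card hT
    rw [Multiset.card_add, card_orb, h.card] at this
    omega
  obtain ⟨b, rfl⟩ := Multiset.card_eq_one.1 cT
  have pr := h.prod
  rw [hT, Multiset.prod_add, prod_orb, Multiset.prod_singleton] at pr
  have g1 : ((n.gcd (w Q 1) : ℕ) : ℤ) ∣ Q - 1 := by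
    have := Int.natCast_dvd.2 (show n.gcd (w Q 1) ∣ (Q ^ 1 - 1).natAbs from Nat.gcd_dvd_right _ _)
    rwa [pow_one] at this
  have g2 : ∀ i : ℕ, ((n.gcd (w Q 1) : ℕ) : ℤ) ∣ Q ^ i - 1 := fun i => g1.trans (sub_one_dvd_pow_sub_one Q i)
  have mg : tm n Q * n.gcd (w Q 1) = w Q e := by
    rw [tm, show n - 1 = e by omega]
    exact Nat.div_mul_cancel (Int.natCast_dvd.1 (g2 e))
  have key : ∀ z : ℤ, ((n.gcd (w Q 1) : ℕ) : ℤ) ∣ z - 1 → (a ^ z) ^ tm n Q = a ^ tm n Q := by
    rintro z ⟨t, ht⟩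
    have : a ^ ((z - 1) * tm n Q) = 1 := by
      rw [ht, show (n.gcd (w Q 1) : ℤ) * t * tm n Q = ((tm n Q * n.gcd (w Q 1) : ℕ) : ℤ) * t by push_cast; ring,
        mg, zpow_mul, zpow_natCast, he.pow_w, one_zpow]
    rw [← zpow_natCast, ← zpow_mul, ← zpow_natCast, show z * tm n Q = (z - 1) * tm n Q + tm n Q by ring, zpow_add, this,
      one_mul]
  have all : ∀ x ∈ R, x ^ tm n Q = a ^ tm n Q := fun x hx => by
    rw [hT, Multiset.mem_add] at hx
    rcases hx with hx | hx
    · obtain ⟨i, rfl⟩ := ub_mem hx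
      exact key _ (g2 i)
    · rw [Multiset.mem_singleton.1 hx, eq_inv_of_mul_eq_one_right pr, ← zpow_neg]
      refine key _ ?_
      have s1 := Finset.dvd_sum (s := Finset.range e) fun i _ => g2 i
      have s2 : ((n.gcd (w Q 1) : ℕ) : ℤ) ∣ (e : ℤ) + 1 := by
        have := Int.natCast_dvd_natCast.2 (Nat.gcd_dvd_left n (w Q 1))
        rwa [show ((n : ℕ) : ℤ) = e + 1 by omega] at this
      rw [Finset.sum_sub_distrib, Finset.sum_const, Finset.card_range, nsmul_one] at s1
      have := (dvd_add s1 s2).neg_right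
      rwa [show -(∑ i ∈ Finset.range e, Q ^ i - e + (e + 1)) = -∑ i ∈ Finset.range e, Q ^ i - 1 by ring] at this
  have := h.ord (tm n Q) 0 (fun x hx y hy => (all x hx).trans (all y hy).symm) fun x _ => by
    by_cases m : x ∈ orb Q a e
    · obtain ⟨i, rfl⟩ := ub_mem m
      rw [h.count_pow, ca, pow_zero]
    · rw [hT, Multiset.count_add, Multiset.count_eq_zero.2 m, zero_add, pow_zero]
      exact (Multiset.count_le_card _ _).trans (by simp)
  rwa [pow_zero, mul_one] at this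

/-- `a` from `exists_eig` with `r = 5` has period 4 (`5 ∣ w (-2) d`, `d ≤ 6`), `count a R = 1`; `b` from `exists_mult` (`k = 0`) has
count `≥ 2`, so it is not in the orbit of `a`; `add_le`: count 2, period 1, `R = orb a 4 + 2 • {b}`.  `a ^ 15 = 1`, `b ^ 3 = 1`,
`a ^ (-5) * b ^ 2 = 1` (`prod_orb`).  All fifth powers equal `b ^ 2` (`b ^ (-2) = b`), `h.ord 5 1`: `o ∣ 10`. -/
theorem n30 (h : Ev 6 (-2) 2 o R) : ¬ 30 ∣ o := fun d => by
  obtain ⟨a, ha, e, he, re⟩ := h.exists_eig (r := 5) (Dvd.dvd.trans (by decide) d) (Nat.Prime.isPrimePow (by decide))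
    (by decide)
  obtain ⟨b, hb, cb⟩ := h.exists_mult (k := 0) (Dvd.dvd.trans (by decide) d)
  obtain ⟨f, hf⟩ := h.exists_per hb
  have c1 : 0 < R.count a := Multiset.count_pos.2 ha
  have l := h.mul_le he
  have e0 := he.pos
  have f0 := hf.pos
  have e6 : e ≤ 6 := by nlinarith
  obtain rfl : e = 4 := by revert re; interval_cases e <;> decide
  have ca : R.count a = 1 := by omega
  have nb : b ∉ orb (-2) a 4 := fun m => by
    obtain ⟨i, rfl⟩ := ub_mem m
    rw [h.count_pow] at cb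
    omega
  have l2 := h.add_le he hf nb
  obtain rfl : f = 1 := by nlinarith
  have c2 : R.count b = 2 := by omega
  obtain ⟨pr, mem⟩ := h.ub_two he hf nb ca (by omega)
  have b3 : b ^ 3 = 1 := hf.pow_w
  have a5 : a ^ 5 = b ^ 2 := by
    rw [c2, show ∑ i ∈ Finset.range 4, (-2 : ℤ) ^ i = -(5 : ℕ) by decide, zpow_neg, zpow_natCast] at pr
    exact inv_mul_eq_one.1 pr
  have bi : ∀ i : ℕ, b ^ (-2 : ℤ) ^ i = b := fun i => by
    induction i with
    | zero => simp
    | succ i ih => rw [pow_succ, zpow_mul, ih]; simpa using hf.eq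
  have all : ∀ x ∈ R, x ^ 5 = b ^ 2 := fun x hx => by
    rcases mem x hx with ⟨i, rfl⟩ | rfl
    · rw [← zpow_natCast, ← zpow_mul, mul_comm, zpow_mul, zpow_natCast, a5, ← zpow_natCast, ← zpow_mul, mul_comm,
        zpow_mul, bi, zpow_natCast]
    · rw [show 5 = 3 + 2 from rfl, pow_add, b3, one_mul]
  have := h.ord 5 1 (fun x hx y hy => (all x hx).trans (all y hy).symm) fun x hx => by
    rcases mem x hx with ⟨i, rfl⟩ | rfl
    · rw [h.count_pow]; omega
    · omega
  exact absurd (d.trans this) (by decide)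

/-- `a` from `exists_eig` with `r = 9` has period 3 or 6, `b` from `exists_mult` (`k = 1`) has count `≥ 3`; `mul_le`, `add_le`: period of
`a` is 3, `count a R = 1` (if `b` is in the orbit of `a`, `3 * 3 ≤ 6`), `R = orb a 3 + 3 • {b}`, `b ^ 3 = 1`, `a ^ 3 * b ^ 3 = 1`.
All cubes are 1, `h.ord 3 2`: `o ∣ 12`. -/
theorem n36 (h : Ev 6 (-2) 2 o R) : ¬ 36 ∣ o := fun d => by
  obtain ⟨a, ha, e, he, re⟩ := h.exists_eig (r := 9) (Dvd.dvd.trans (by decide) d)
    ((Nat.prime_three.isPrimePow).pow two_ne_zero) (by decide)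
  obtain ⟨b, hb, cb⟩ := h.exists_mult (k := 1) (Dvd.dvd.trans (by decide) d)
  obtain ⟨f, hf⟩ := h.exists_per hb
  have c1 : 0 < R.count a := Multiset.count_pos.2 ha
  have l := h.mul_le he
  have e0 := he.pos
  have f0 := hf.pos
  have e6 : e ≤ 6 := by nlinarith
  have e3 : 3 ≤ e := by revert re; interval_cases e <;> decide
  have nb : b ∉ orb (-2) a e := fun m => by
    obtain ⟨i, rfl⟩ := ub_mem m
    rw [h.count_pow] at cb
    nlinarith
  have l2 := h.add_le he hf nb
  have x1 : e ≤ R.count a * e := Nat.le_mul_of_pos_left _ c1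
  have x2 : 3 * f ≤ R.count b * f := Nat.mul_le_mul_right _ (by omega)
  obtain rfl : e = 3 := by omega
  obtain rfl : f = 1 := by omega
  have ca : R.count a = 1 := by omega
  have c2 : R.count b = 3 := by omega
  obtain ⟨pr, mem⟩ := h.ub_two he hf nb ca (by omega)
  have b3 : b ^ 3 = 1 := hf.pow_w
  have a3 : a ^ 3 = 1 := by
    rwa [c2, b3, mul_one, show ∑ i ∈ Finset.range 3, (-2 : ℤ) ^ i = (3 : ℕ) by decide, zpow_natCast] at pr
  have all : ∀ x ∈ R, x ^ 3 = 1 := fun x hx => by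
    rcases mem x hx with ⟨i, rfl⟩ | rfl
    · rw [← zpow_natCast, ← zpow_mul, mul_comm, zpow_mul, zpow_natCast, a3, one_zpow]
    · exact b3
  have := h.ord 3 2 (fun x hx y hy => (all x hx).trans (all y hy).symm) fun x hx => by
    rcases mem x hx with ⟨i, rfl⟩ | rfl
    · rw [h.count_pow]; omega
    · omega
  exact absurd (d.trans this) (by decide)

/-- `b` from `exists_mult` (`k = 2`) has count `≥ 5`, period 1, `b ^ 3 = 1`; `R = 5 • {b} + {a}`, `b ^ 5 * a = 1`, so `a = b`.
`h.ord 1 3`: `o ∣ 8`. -/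
theorem n24 (h : Ev 6 (-2) 2 o R) : ¬ 24 ∣ o := fun d => by
  obtain ⟨b, hb, cb⟩ := h.exists_mult (k := 2) (Dvd.dvd.trans (by decide) d)
  obtain ⟨f, hf⟩ := h.exists_per hb
  have l := h.mul_le hf
  have f0 := hf.pos
  obtain rfl : f = 1 := by nlinarith
  have b3 : b ^ 3 = 1 := hf.pow_w
  obtain ⟨T, hT⟩ := Multiset.le_iff_exists_add.1 (Multiset.le_count_iff_replicate_le.1 (show 5 ≤ R.count b by omega))
  have cT : T.card = 1 := by
    have := congrArg Multiset.card hT
    rw [Multiset.card_add, Multiset.card_replicate, h.card] at this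
    omega
  obtain ⟨a, rfl⟩ := Multiset.card_eq_one.1 cT
  have pr := h.prod
  rw [hT, Multiset.prod_add, Multiset.prod_replicate, Multiset.prod_singleton] at pr
  have ab : a = b := mul_left_cancel (a := b ^ 5) (by rw [pr, ← pow_succ, show 5 + 1 = 3 * 2 from rfl, pow_mul, b3, one_pow])
  have all : ∀ x ∈ R, x = b := fun x hx => by
    rw [hT, Multiset.mem_add] at hx
    exact hx.elim Multiset.eq_of_mem_replicate fun k => (Multiset.mem_singleton.1 k).trans ab
  have := h.ord 1 3 (fun x hx y hy => by rw [all x hx, all y hy]) fun x _ =>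
    (Multiset.count_le_card _ _).trans (by rw [h.card]; decide)
  exact absurd (d.trans this) (by decide)

end Cfsg.Lib.SPL.Ev
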