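import Cfsg.Agent.Lib.SPL.Ua
import Cfsg.Agent.Lib.SPL.Ub
import Cfsg.Agent.Lib.SPL.EvM
import Cfsg.Agent.Lib.SPL.Ex

/-!
# S3586: the element orders of `Lₙ(q)` and `Uₙ(q)` satisfy `Ar`
-/

set_option autoImplicit false

namespace Cfsg.Lib.SPL

open Matrix Cfsg.Lib.Spec

theorem ar_of {L A : Type*} [Group L] [CommGroup A] [DecidableEq A] {n p : ℕ} {Q : ℤ} (hn : 4 ≤ n) (hp : p.Prime)
    (hQ : ∃ k, 0 < k ∧ Q.natAbs = p ^ k) (ev : ∀ x : L, ∃ R : Multiset A, Ev n Q p (orderOf x) R)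
    (ex : ∀ i m, 0 < i → i ≤ n → m ∣ w Q i → m.Coprime (w Q 1) → m ∈ sp L) (exp : p ∈ sp L)
    (e62 : n = 6 → Q = -2 → 8 ∈ sp L ∧ 9 ∈ sp L ∧ 15 ∈ sp L) : Ar n Q p (sp L) := by
  have k : ∀ o ∈ sp L, ∃ R : Multiset A, Ev n Q p o R := fun o ⟨x, e⟩ => e ▸ ev x
  refine ⟨hn, hp, hQ, fun r h a b => ?_, fun r s h a b c d => ?_, fun j h => ?_, fun j r h a b => ?_, fun o h r d a b c => ?_,
    fun o h r d a b c => ?_, fun e1 e2 => ?_, ex, exp, e62⟩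
  · obtain ⟨R, e⟩ := k _ h; exact e.u1 dvd_rfl a b
  · obtain ⟨R, e⟩ := k _ h; exact e.u2 (dvd_mul_right _ _) (dvd_mul_left _ _) a b c d
  · obtain ⟨R, e⟩ := k _ h; exact e.u3 dvd_rfl
  · obtain ⟨R, e⟩ := k _ h; exact e.u3' (dvd_mul_right _ _) (dvd_mul_left _ _) a b
  · obtain ⟨R, e⟩ := k _ h; exact e.u4 d a b c
  · obtain ⟨R, e⟩ := k _ h; exact e.u5 hn d a b c
  · subst e1 e2
    obtain ⟨j, j0, hj⟩ := hQ
    obtain rfl : p = 2 := (Nat.prime_dvd_prime_iff_eq hp Nat.prime_two).1 (show p ∣ (-2 : ℤ).natAbs from hj ▸ dvd_pow_self p j0.ne')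
    refine ⟨fun h => ?_, fun h => ?_, fun h => ?_⟩ <;> obtain ⟨R, e⟩ := k _ h
    exacts [e.n30 dvd_rfl, e.n36 dvd_rfl, e.n24 dvd_rfl]

variable {F : Type*} [Field F] [Fintype F] {n q : ℕ}

theorem ar_psl (hn : 4 ≤ n) : ∃ p, Ar n (Fintype.card F) p (sp (ProjectiveSpecialLinearGroup (Fin n) F)) := by
  classical
  obtain ⟨p, _, k, hp, e⟩ := FiniteField.card' F
  exact ⟨p, ar_of hn hp ⟨k, k.pos, by simpa using e⟩ (ev_psl hp (by omega)) (fun _ _ => ex_psl) (exp_psl hp (by omega))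
    fun _ h => absurd h (by omega)⟩

theorem ar_psu (hn : 4 ≤ n) (hF : Fintype.card F = q ^ 2) : ∃ p, Ar n (-q) p (sp (PSU n F q)) := by
  classical
  obtain ⟨p, _, k, hp, e⟩ := FiniteField.card' F
  obtain ⟨j, -, hj⟩ := (Nat.dvd_prime_pow hp).1 (show q ∣ p ^ (k : ℕ) from e ▸ hF ▸ dvd_pow_self q two_ne_zero)
  have j0 : 0 < j := Nat.pos_of_ne_zero fun z => by
    have := Fintype.one_lt_card (α := F)
    rw [hF, hj, z] at this
    simp at this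
  refine ⟨p, ar_of hn hp ⟨j, j0, by simpa using hj⟩ (ev_psu hp hF (by omega)) (fun _ _ => ex_psu hF (by omega))
    (exp_psu hp hF (by omega)) fun a b => ?_⟩
  obtain rfl : q = 2 := by omega
  subst a
  exact ⟨ex62_8 hF, ex62_9 hF, ex62_15 hF⟩

end Cfsg.Lib.SPL
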