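import Cfsg.Agent.Lib.SPL.Def
import Cfsg.Agent.Lib.GLC.Ord2
import Cfsg.Agent.Lib.Unitary.Wall5

/-!
# S3586: elements of given order in `Lₙ(q)`, and of order `p` in `Uₙ(q)`
-/

set_option autoImplicit false

namespace Cfsg.Lib.SPL

open Matrix Cfsg.Lib.Spec Cfsg.Lib.GLC Cfsg.Lib.Unitary Polynomial

variable {F : Type*} [Field F] [Fintype F] {n i m p q : ℕ}

theorem w_nat {q : ℕ} (hq : 0 < q) (d : ℕ) : w q d = q ^ d - 1 := by
  rw [w, ← Int.natAbs_natCast (q ^ d - 1), Nat.cast_sub (Nat.one_le_pow _ _ hq)]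
  simp

theorem ex_psl' (h0 : 0 < i) (hi : i ≤ n) (d : m ∣ w (Fintype.card F) i) (c : m.Coprime (w (Fintype.card F) 1)) :
    m ∈ sp (ProjectiveSpecialLinearGroup (Fin n) F) := by
  rw [w_nat Fintype.card_pos] at d c
  have : Nonempty (Fin i) := ⟨⟨0, h0⟩⟩
  obtain ⟨x, hx⟩ := exists_psl_of_coprime (F := F) (n := Fin i) (k := m)
    (by simpa [Nat.card_eq_fintype_card] using c) (by simpa [Nat.card_eq_fintype_card] using d)
  obtain ⟨y, hy⟩ := exists_psl_of_le (n := Fin n) x (by simpa using hi)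
  exact mem_sp_of_dvd_orderOf y (hx.trans hy)

theorem exp_psl' [CharP F p] (hp : p.Prime) (hn : 2 ≤ n) : p ∈ sp (ProjectiveSpecialLinearGroup (Fin n) F) := by
  have := Fact.mk hp
  obtain ⟨x, hx⟩ := exists_psl_char (F := F) (n := Fin n) p (by simpa using hn)
  exact mem_sp_of_dvd_orderOf x hx

theorem exp_psu' [CharP F p] (hp : p.Prime) (hF : Fintype.card F = q ^ 2) (hn : 2 ≤ n) : p ∈ sp (PSU n F q) := by
  have := Fact.mk hp
  obtain ⟨σ, hσ⟩ := exists_isBar hF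
  obtain ⟨u, hu⟩ := exists_sl_jt (F := F) (n := Fin n) (d := {n}) (by simp)
  obtain ⟨x, hx⟩ := hσ.exists_psu_dvd_orderOf hn (hσ.sd_jt hu (by simp)) (by simp)
    ((LinearMap.det_toLin' _).trans u.2) (m := p) fun k c hc =>
      (dvd_pow_self p (Nat.clog_pos hp.one_lt hn).ne').trans (hu.pow_clog_dvd p (isUnit_toLin'_gl
        (SpecialLinearGroup.toGL u)) (irreducible_X_sub_C 1) (by simp [jt]) hc)
  exact mem_sp_of_dvd_orderOf x hx

end Cfsg.Lib.SPL
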