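import Cfsg.Agent.Lib.SPL.KJ
import Cfsg.Agent.Lib.Coprime.Generation
import Cfsg.Agent.Lib.BG.T12_13

/-!
# S3586: the orders of `HS` and `McL`, 5-local analysis, I

`f : G →* S` is onto the simple group `S`; the kernel centralizes the abelian normal subgroup `V`.  To avoid lifting, everything is
stated for an action `φ` of `S` on an abelian group `V` (work in `V ⋊[φ] S` to use the coprime action lemmas of the library, or argue
with norm maps directly).
-/

set_option autoImplicit false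

namespace Cfsg.Lib.SPL

open Subgroup Cfsg.Lib.BG Cfsg.Lib.Spec Cfsg.Lib.Transfer

/-- the hypotheses of the 5-local analysis -/
structure F5 {S V : Type*} [Group S] [CommGroup V] (φ : S →* MulAut V) : Prop where
  simple : IsSimpleGroup S
  card : Nat.card S = 44352000 ∨ Nat.card S = 898128000
  sp : Sp S
  inj : Function.Injective φ
  cop : ¬ 5 ∣ Nat.card V
  inv : ∀ u x : S, orderOf u = 2 → orderOf x = 5 → Commute u x → ∀ v, φ x v = v → φ u v = v⁻¹
  b3 : ∀ R : Subgroup S, Nat.card R = 25 → ¬ 27 ∣ Nat.card 𝐂(R)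

variable {S V : Type*} [Group S] [Finite S] [CommGroup V] [Finite V] {φ : S →* MulAut V} {P P' R : Subgroup S} {u x : S}

omit [Finite S] in
theorem ab25 (c : Nat.card R = 25) : R ≤ 𝐂(R) :=
  haveI := Fact.mk Nat.prime_five
  abelian_iff.1 (IsPGroup.isMulCommutative_of_card_eq_prime_sq (p := 5) c)

omit [Finite S] in
theorem ord5 (h : x ^ 5 = 1) (x1 : x ≠ 1) : orderOf x = 5 :=
  haveI := Fact.mk Nat.prime_five
  orderOf_eq_prime h x1

omit [Finite S] in
theorem card_zp5 (h : x ^ 5 = 1) (x1 : x ≠ 1) : Nat.card (zpowers x) = 5 := by rw [Nat.card_zpowers, ord5 h x1]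

theorem card_sup5 (h : x ^ 5 = 1) (hx : x ∈ 𝐍(R)) (n : x ∉ R) : Nat.card ↥(R ⊔ zpowers x) = Nat.card R * 5 := by
  have x1 : x ≠ 1 := fun e => n (e ▸ one_mem _)
  have k := PGroup.card_sup_mul_card_inf (zpowers_le.2 hx)
  have i : zpowers x ⊓ R = ⊥ := inf_eq_bot_of_prime (card_zp5 h x1 ▸ Nat.prime_five) fun l => n (l (mem_zpowers x))
  rwa [inf_comm, i, card_bot, mul_one, card_zp5 h x1] at k

/-- `x` acts on `R` as a transvection -/
theorem axis (c : Nat.card R = 25) (ox : x ^ 5 = 1) (hx : x ∈ 𝐍(R)) (nx : x ∉ 𝐂(R)) {r : S} (hr : r ∈ R) :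
    x * r * x⁻¹ * r⁻¹ ∈ R ⊓ 𝐂[x] := by
  haveI := Fact.mk Nat.prime_five
  have k := card_sup5 ox hx fun m => nx (ab25 c m)
  have d := (A12.der_le_Ohm1_center (p := 5) (S := R ⊔ zpowers x) (by rw [k, c]; rfl)).trans ((Ohm1_le 5 _).trans inf_le_right)
  exact ⟨R.mul_mem (conj_mem_of_norm hx hr) (R.inv_mem hr), cent_le_cent1 (mem_sup_right (mem_zpowers x))
    (d (comm_mem_comm (mem_sup_right (mem_zpowers x)) (mem_sup_left hr)))⟩

/-- A noncyclic abelian group `R` of order 25 acting coprimely on `V`: `V` is generated by the fixed points of the elements `≠ 1`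
(`Lib/Coprime/Generation` in the semidirect product; or directly: with `N_A = ∏_{a ∈ A} φ a`, the product of the `N_A v` over the six
subgroups `A` of order 5 is `N_R v * v ^ 5`). -/
theorem gen25 (cop : ¬ 5 ∣ Nat.card V) (c : Nat.card R = 25) (e : ∀ x ∈ R, x ^ 5 = 1) (W : Subgroup V)
    (h : ∀ x ∈ R, x ≠ 1 → ∀ v, φ x v = v → v ∈ W) : W = ⊤ := by
  haveI := Fact.mk Nat.prime_five
  haveI : Finite (V ⋊[φ] S) := Finite.of_equiv _ SemidirectProduct.equivProd.symm
  have i := SemidirectProduct.inr_injective (φ := φ)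
  have cR : Nat.card (R.map (SemidirectProduct.inr (φ := φ))) = 25 := by rw [card_map_of_injective i, c]
  have k := Coprime.le_of_forall_centralizer_le (A := R.map (SemidirectProduct.inr (φ := φ)))
    (K := (SemidirectProduct.inl (φ := φ)).range) (H := W.map SemidirectProduct.inl) (abelian_iff.2 (ab25 cR))
    (fun cy => by
      obtain ⟨_, ⟨y, hy, rfl⟩, z⟩ := cyclic_iff.1 cy
      rw [← z, Nat.card_zpowers, orderOf_injective _ i] at cR
      have := Nat.le_of_dvd (by decide) (orderOf_dvd_of_pow_eq_one (e y hy))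
      omega)
    (by rw [SemidirectProduct.range_inl_eq_ker_rightHom, normalizer_eq_top]; exact le_top)
    (by
      rw [cR, ← Nat.card_congr (MonoidHom.ofInjective SemidirectProduct.inl_injective).toEquiv]
      exact ((Nat.Prime.coprime_iff_not_dvd Nat.prime_five).2 cop).pow_left 2)
    (by
      rintro _ ⟨y, hy, rfl⟩ y1 _ ⟨⟨v, rfl⟩, m⟩
      refine mem_map_of_mem _ (h y hy (fun q => y1 (by rw [q, map_one])) v (SemidirectProduct.inl_injective (φ := φ) ?_))
      rw [SemidirectProduct.inl_aut, ← mem_cent1.1 m, map_inv, mul_inv_cancel_right])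
  refine top_le_iff.1 fun v _ => ?_
  obtain ⟨w, hw, q⟩ := k ⟨v, rfl⟩
  exact SemidirectProduct.inl_injective q ▸ hw

namespace F5

variable (h : F5 φ)
include h

/-- 5-elements have order 1 or 5 (`25 ∉ om`) -/
theorem exp5 (hP : IsPGroup 5 P) (hx : x ∈ P) : x ^ 5 = 1 := by
  haveI := Fact.mk Nat.prime_five
  obtain ⟨k, hk⟩ := IsPGroup.iff_orderOf.1 hP ⟨x, hx⟩
  rw [orderOf_mk] at hk
  rcases k with _ | _ | k
  · rw [orderOf_eq_one_iff.1 hk, one_pow]
  · exact orderOf_dvd_iff_pow_eq_one.1 (by rw [hk]; rfl)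
  · exact absurd (h.sp.dvd (x := x) (n := 25) (hk ▸ ⟨5 ^ k, by ring⟩)) (by decide)

/-- An involution `u ∈ 𝐂(R)` inverts all fixed points, so all of `V` (`gen25` with `W = {v | φ u v = v⁻¹}`); then `φ u` is central,
`u ∈ center S = ⊥`. -/
theorem odd_cent (c : Nat.card R = 25) : ¬ 2 ∣ Nat.card 𝐂(R) := by
  haveI := Fact.mk Nat.prime_five
  haveI := Fact.mk Nat.prime_two
  haveI := h.simple
  intro d
  obtain ⟨⟨u, hu⟩, ou⟩ := exists_prime_orderOf_dvd_card' 2 d
  rw [orderOf_mk] at ou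
  have e : ∀ x ∈ R, x ^ 5 = 1 := fun x => h.exp5 (IsPGroup.of_card (n := 2) c)
  have k := gen25 (φ := φ) h.cop c e ((φ u).toMonoidHom.eqLocus invMonoidHom) fun x hx x1 v hv =>
    h.inv u x ou (ord5 (e x hx) x1) (mem_cent.1 hu x hx).symm v hv
  have k' : ∀ v, φ u v = v⁻¹ := fun v => k.ge (mem_top v)
  have m : u ∈ center S := mem_center_iff.2 fun g => h.inj (MulEquiv.ext fun v => by
    rw [map_mul, map_mul, MulAut.mul_apply, MulAut.mul_apply, k', k', map_inv])
  rcases (inferInstance : (center S).Normal).eq_bot_or_eq_top with q | q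
  · rw [q, mem_bot] at m
    rw [m, orderOf_one] at ou
    omega
  · haveI : IsMulCommutative S := ⟨⟨fun a b => (mem_center_iff.1 (q.ge (mem_top b)) a)⟩⟩
    have pr := (Group.is_simple_iff_prime_card (α := S)).1 inferInstance
    rcases h.card with q | q <;> rw [q] at pr <;> exact absurd pr (by norm_num)

/-- `odd_cent`, `b3`, no 35, 55 -/
theorem card_cent (c : Nat.card R = 25) : Nat.card 𝐂(R) ∣ 125 * 9 := by
  haveI := Fact.mk Nat.prime_five
  have pg : IsPGroup 5 R := IsPGroup.of_card (n := 2) c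
  obtain ⟨x, hx, x1⟩ := exists_ne_one (ne_bot_of_dvd (A := R) Nat.prime_five (by rw [c]; decide))
  have k : ∀ s, s.Prime → 5 ≠ s → 5 * s ∉ om → (Nat.card 𝐂(R)).Coprime s := fun s hs ne n =>
    ((Nat.Prime.coprime_iff_not_dvd hs).2 fun d => ndvd_cent Nat.prime_five hs ne (h.sp.not_mem n) pg hx x1
      (d.trans (card_dvd (cent_le_cent1 hx)))).symm
  have k2 : (Nat.card 𝐂(R)).Coprime (2 ^ 9) := ((Nat.Prime.coprime_iff_not_dvd Nat.prime_two).2 (h.odd_cent c)).symm.pow_right 9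
  have d : Nat.card 𝐂(R) ∣ 2 ^ 9 * (7 * (11 * (125 * 3 ^ 6))) :=
    (card_subgroup_dvd_card _).trans (by rcases h.card with q | q <;> rw [q] <;> decide)
  obtain ⟨a, b, da, db, e⟩ := (Nat.dvd_mul).1 ((k 11 (by norm_num) (by decide) (by decide)).dvd_of_dvd_mul_left
    ((k 7 (by norm_num) (by decide) (by decide)).dvd_of_dvd_mul_left (k2.dvd_of_dvd_mul_left d)))
  obtain ⟨j, -, rfl⟩ := (Nat.dvd_prime_pow Nat.prime_three).1 db
  have j2 : j ≤ 2 := by
    by_contra! l
    exact h.b3 R c (e ▸ (pow_dvd_pow 3 l).mul_left a)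
  exact e ▸ Nat.mul_dvd_mul da (pow_dvd_pow 3 j2)

/-- Let `U = {v | N_R v = 1}`, `N_R v = ∏_{r ∈ R} φ r v` (invariant under `𝐍(R)`; `U` has no fixed points `≠ 1` of `R`; for every `v`,
`v ^ 25 * (N_R v)⁻¹ ∈ U`).  `R₀ = R ⊓ 𝐂[x]` has order 5.  Let `a ∈ R ∖ R₀`, `A = zpowers a`, `w ∈ U` fixed by `a`, and
`v = ∏_{i < 5} φ (x ^ i) w`, fixed by `x`.  For `0 < i < 5`, `x ^ i a x ^ (-i) ∉ A`, so `N_A (φ (x ^ i) w)` is fixed by `R`, lies in `U`, is 1.
So `N_A v = w ^ 5`; `u` normalizes `A`, `φ u v = v⁻¹` (`inv`), hence `φ u w = w⁻¹`.  This holds for all such `w`, and also for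
`φ r w`, `r ∈ R`; so `φ r⁻¹ w = φ r w`, `w` is fixed by `R`, `w = 1`.  By `gen25` (for the action on `U`, or on `V` with the
decomposition above) `R₀` acts trivially on `V`, against `inj`. -/
theorem no_inv (c : Nat.card R = 25) (ou : orderOf u = 2) (hu : ∀ r ∈ R, u * r * u⁻¹ = r⁻¹) (ox : orderOf x = 5) (hx : x ∈ 𝐍(R))
    (n : x ∉ 𝐂(R)) (k : Commute u x) : False := by
  haveI := Fact.mk Nat.prime_five
  have e : ∀ x ∈ R, x ^ 5 = 1 := fun x => h.exp5 (IsPGroup.of_card (n := 2) c)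
  have x5 : x ^ 5 = 1 := ox ▸ pow_orderOf_eq_one x
  obtain ⟨a, ha, na⟩ : ∃ a ∈ R, ¬ a * x = x * a := by
    by_contra! q
    exact n (mem_cent.2 q)
  obtain ⟨zR, zx⟩ := axis c x5 hx n ha
  obtain ⟨z, hz⟩ : ∃ z, z = x * a * x⁻¹ * a⁻¹ := ⟨_, rfl⟩
  rw [← hz] at zR zx
  have z1 : z ≠ 1 := fun q => na (by rw [q, eq_comm, mul_inv_eq_one, mul_inv_eq_iff_eq_mul] at hz; exact hz.symm)
  have z5 := e z zR
  have cz : Commute z x := mem_cent1.1 zx
  have ca : Commute a z := mem_cent.1 (ab25 c zR) a ha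
  -- `z` fixes the fixed points of `x`
  have f0 : ∀ v, φ x v = v → φ z v = v := fun v hv => by
    have h1 : φ x (φ z v) = φ z v := by rw [← MulAut.mul_apply, ← map_mul, ← cz.eq, map_mul, MulAut.mul_apply, hv]
    have h2 := h.inv u x ou ox k _ h1
    have h3 : u * z = z⁻¹ * u := by rw [← hu z zR, inv_mul_cancel_right]
    rw [← MulAut.mul_apply, ← map_mul, h3, map_mul, MulAut.mul_apply, h.inv u x ou ox k v hv, map_inv, inv_inj] at h2
    have h5 : φ (z * z) v = v := by
      rw [map_mul, MulAut.mul_apply, ← h2, ← MulAut.mul_apply, ← map_mul, mul_inv_cancel, map_one, MulAut.one_apply]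
    have h6 : ∀ j : ℕ, φ ((z * z) ^ j) v = v := fun j => by
      induction j with
      | zero => rw [pow_zero, map_one, MulAut.one_apply]
      | succ j ih => rw [pow_succ, map_mul, MulAut.mul_apply, h5, ih]
    have h7 : (z * z) ^ 3 = z := by rw [← pow_two, ← pow_mul, show 2 * 3 = 5 + 1 from rfl, pow_succ, z5, one_mul]
    exact h7 ▸ h6 3
  have g1 : x * a = a * (z * x) := by rw [← mul_assoc, ca.eq, hz]; group
  have gm : ∀ m : ℕ, x * a ^ m = a ^ m * (z ^ m * x) := fun m => by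
    induction m with
    | zero => simp
    | succ m ih => rw [pow_succ, ← mul_assoc, ih, mul_assoc, mul_assoc, g1, ← mul_assoc (z ^ m), ← (ca.pow_right m).eq, pow_succ]; group
  have f1 : ∀ (m : ℕ) v, φ (z ^ m * x) v = v → φ z v = v := fun m v hv => by
    have h1 := f0 (φ (a ^ m) v) (by rw [← MulAut.mul_apply, ← map_mul, gm, map_mul, MulAut.mul_apply, hv])
    rw [← MulAut.mul_apply, ← map_mul, ← (ca.pow_left m).eq, map_mul, MulAut.mul_apply] at h1
    exact (φ (a ^ m)).injective h1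
  have fp : ∀ (y : S) (j : ℕ) v, φ y v = v → φ (y ^ j) v = v := fun y j v hv => by
    induction j with
    | zero => rw [pow_zero, map_one, MulAut.one_apply]
    | succ j ih => rw [pow_succ, map_mul, MulAut.mul_apply, hv, ih]
  have nz : x ∈ 𝐍(zpowers z) := cent_le_norm _ ((cent_zpowers z).ge (mem_cent1.2 cz.eq.symm))
  have cE : Nat.card ↥(zpowers z ⊔ zpowers x) = 25 := by
    rw [card_sup5 x5 nz fun m => n (ab25 c (zpowers_le.2 zR m)), card_zp5 z5 z1]
  have k := gen25 (φ := φ) h.cop cE (fun y => h.exp5 (IsPGroup.of_card (n := 2) cE)) ((φ z).toMonoidHom.eqLocus (MonoidHom.id V))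
    fun y hy y1 v hv => by
      obtain ⟨_, hi, _, hj, rfl⟩ := (mem_sup_left_norm (zpowers_le.2 nz)).1 hy
      obtain ⟨i, rfl⟩ := mem_powers_iff_mem_zpowers.2 hi
      obtain ⟨j, rfl⟩ := mem_powers_iff_mem_zpowers.2 hj
      change φ z v = v
      dsimp only at y1 hv
      by_cases d : 5 ∣ j
      · rw [(orderOf_dvd_iff_pow_eq_one (x := x)).1 (ox ▸ d), mul_one] at hv y1
        obtain ⟨l, hl⟩ := mem_powers_iff_mem_zpowers.2
          ((zpowers_eq_of_prime (card_zp5 z5 z1 ▸ Nat.prime_five) hi y1).ge (mem_zpowers z))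
        exact hl ▸ fp _ l v hv
      · have h1 := fp _ (j ^ 3) v hv
        have h2 : j * j ^ 3 ≡ 1 [MOD orderOf x] := by
          rw [ox, ← pow_succ']
          exact Nat.ModEq.pow_totient (n := 5) ((Nat.Prime.coprime_iff_not_dvd Nat.prime_five).2 d).symm
        rw [(cz.pow_pow i j).mul_pow, ← pow_mul, ← pow_mul, pow_eq_pow_iff_modEq.2 h2, pow_one] at h1
        exact f1 _ v h1
  exact z1 (h.inj (MulEquiv.ext fun v => (show φ z v = v from k.ge (mem_top v)).trans (by rw [map_one, MulAut.one_apply])))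

end F5

end Cfsg.Lib.SPL
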