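import Cfsg.Agent.Lib.SPL.F5a

/-!
# S3586: the orders of `HS` and `McL`, 5-local analysis, II: Sylow intersections
-/

set_option autoImplicit false

namespace Cfsg.Lib.SPL

open Subgroup Cfsg.Lib.BG Cfsg.Lib.Spec Cfsg.Lib.Transfer

variable {S V : Type*} [Group S] [Finite S] [CommGroup V] [Finite V] {φ : S →* MulAut V} {P P' R : Subgroup S} {u x y : S}

theorem card_mid {A B : Subgroup S} {a : ℕ} (l : A < B) (c : Nat.card B = 5 ^ (a + 1)) (d : 5 ^ a ∣ Nat.card A) :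
    Nat.card A = 5 ^ a := by
  obtain ⟨k, hk, e⟩ := (Nat.dvd_prime_pow Nat.prime_five).1 (c ▸ card_dvd l.le)
  rw [e, Nat.pow_dvd_pow_iff_le_right (by decide)] at d
  have : k ≠ a + 1 := fun q => l.ne (eq_of_le_of_card_le l.le (by rw [c, e, q]))
  rw [e, show k = a by omega]

theorem ax_zp (c : Nat.card R = 25) (e : ∀ r ∈ R, r ^ 5 = 1) (nx : x ∉ 𝐂(R)) {z : S} (hz : z ∈ R ⊓ 𝐂[x]) (z1 : z ≠ 1) :
    zpowers z = R ⊓ 𝐂[x] := by
  have k := card_zp5 (e z hz.1) z1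
  refine eq_of_le_of_card_le (zpowers_le.2 hz) ?_
  rw [k, card_mid (a := 1) (lt_of_le_of_ne inf_le_left fun q => nx (le_cent1_iff.1 (q.ge.trans inf_le_right))) c
    (k.ge.antisymm k.le ▸ card_dvd (zpowers_le.2 hz) : 5 ∣ _)]
  rfl

theorem gen2 (c : Nat.card R = 25) (e : ∀ r ∈ R, r ^ 5 = 1) {z a : S} (hz : z ∈ R) (z1 : z ≠ 1) (ha : a ∈ R) (n : a ∉ zpowers z)
    {r : S} (hr : r ∈ R) : ∃ i j : ℕ, z ^ i * a ^ j = r := by
  have nz : a ∈ 𝐍(zpowers z) := cent_le_norm _ (cent_anti (zpowers_le.2 hz) (ab25 c ha))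
  have k : zpowers z ⊔ zpowers a = R := eq_of_le_of_card_le (sup_le (zpowers_le.2 hz) (zpowers_le.2 ha))
    (by rw [card_sup5 (e a ha) nz n, card_zp5 (e z hz) z1, c])
  obtain ⟨_, hi, _, hj, rfl⟩ := (mem_sup_left_norm (zpowers_le.2 nz)).1 (k.ge hr)
  obtain ⟨i, rfl⟩ := mem_powers_iff_mem_zpowers.2 hi
  obtain ⟨j, rfl⟩ := mem_powers_iff_mem_zpowers.2 hj
  exact ⟨i, j, rfl⟩

omit [Finite S] in
theorem tv_pow {a w : S} (h : x * a * x⁻¹ * a⁻¹ = w) (c : w * x = x * w) (k : ℕ) : x ^ k * a = w ^ k * a * x ^ k := by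
  have h1 : x * a = w * a * x := by rw [← h]; group
  induction k with
  | zero => simp
  | succ k ih =>
    rw [pow_succ', mul_assoc, ih, ← mul_assoc, ← mul_assoc, ← (Commute.pow_left c k).eq, mul_assoc (w ^ k), h1, pow_succ]
    group

theorem exists_ncent (c : Nat.card R = 25) (ox : x ^ 5 = 1) (hx : x ∈ 𝐍(R)) (nx : x ∉ 𝐂(R)) :
    ∃ a ∈ R, ∃ z ∈ R ⊓ 𝐂[x], a ∉ 𝐂[x] ∧ z ≠ 1 ∧ x * a * x⁻¹ * a⁻¹ = z := by
  obtain ⟨a, ha, na⟩ : ∃ a ∈ R, a ∉ 𝐂[x] := by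
    by_contra! q
    exact nx (le_cent1_iff.1 q)
  exact ⟨a, ha, _, axis c ox hx nx ha, na, fun q => na (mem_cent1.2 (by
    rw [mul_inv_eq_one, mul_inv_eq_iff_eq_mul] at q; exact q.symm)), rfl⟩

/-- Two transvections with different axes generate `SL₂(5) ∋ -1`.  `R ⊓ 𝐂[x] = zpowers z`, `R ⊓ 𝐂[y] = zpowers z'` have order 5.
`x z' x⁻¹ = z' z ^ α`, `y z y⁻¹ = z z' ^ β` with `5 ∤ α, β` (`x` acts trivially on `R ⧸ zpowers z`); replace `x`, `y` by powers such that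
`α = 1`, `β = -1`; then `g = x y x` maps `z ↦ z'⁻¹`, `z' ↦ z` (or the inverses), and `g * g` inverts `R = zpowers z ⊔ zpowers z'`. -/
theorem exists_neg (c : Nat.card R = 25) (e : ∀ r ∈ R, r ^ 5 = 1) (ox : x ^ 5 = 1) (oy : y ^ 5 = 1) (hx : x ∈ 𝐍(R))
    (hy : y ∈ 𝐍(R)) (nx : x ∉ 𝐂(R)) (ny : y ∉ 𝐂(R)) (ne : R ⊓ 𝐂[x] ≠ R ⊓ 𝐂[y]) :
    ∃ g ∈ 𝐍(R), ∀ r ∈ R, g * r * g⁻¹ = r⁻¹ := by
  obtain ⟨-, -, w, hw, -, w1, -⟩ := exists_ncent c oy hy ny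
  have ew := ax_zp c e ny hw w1
  have nw : w ∉ 𝐂[x] := fun m => ne ((ax_zp c e nx ⟨hw.1, m⟩ w1).symm.trans ew)
  have hz := axis c ox hx nx hw.1
  obtain ⟨z, ez⟩ : ∃ z, x * w * x⁻¹ * w⁻¹ = z := ⟨_, rfl⟩
  rw [ez] at hz
  have z1 : z ≠ 1 := fun q => nw (mem_cent1.2 (by rw [q, mul_inv_eq_one, mul_inv_eq_iff_eq_mul] at ez; exact ez.symm))
  have nz : z ∉ 𝐂[y] := fun m => ne ((ax_zp c e nx hz z1).symm.trans (ax_zp c e ny ⟨hz.1, m⟩ z1))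
  have hv := axis c oy hy ny hz.1
  obtain ⟨v, ev⟩ : ∃ v, y * z * y⁻¹ * z⁻¹ = v := ⟨_, rfl⟩
  rw [ev] at hv
  have v1 : v ≠ 1 := fun q => nz (mem_cent1.2 (by rw [q, mul_inv_eq_one, mul_inv_eq_iff_eq_mul] at ev; exact ev.symm))
  obtain ⟨k, hk⟩ := mem_powers_iff_mem_zpowers.2 ((ax_zp c e ny hv v1).ge (inv_mem hw))
  have a1 := tv_pow ev (mem_cent1.1 hv.2) k
  dsimp only at hk
  rw [hk] at a1
  have a2 : y ^ k * w = w * y ^ k := (Commute.pow_right (mem_cent1.1 hw.2) k).eq.symm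
  have a3 : x * w = z * w * x := by rw [← ez]; group
  have a4 : x * z = z * x := (mem_cent1.1 hz.2).symm
  have a5 : z * w = w * z := mem_cent.1 (ab25 c hw.1) z hz.1
  obtain ⟨f, hf⟩ : ∃ f : MulAut S, f = MulAut.conj x := ⟨_, rfl⟩
  obtain ⟨t, ht⟩ : ∃ t : MulAut S, t = MulAut.conj (y ^ k) := ⟨_, rfl⟩
  have b1 : t z = w⁻¹ * z := by rw [ht, MulAut.conj_apply, a1, mul_inv_cancel_right]
  have b2 : t w = w := by rw [ht, MulAut.conj_apply, a2, mul_inv_cancel_right]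
  have b3 : f w = z * w := by rw [hf, MulAut.conj_apply, a3, mul_inv_cancel_right]
  have b4 : f z = z := by rw [hf, MulAut.conj_apply, a4, mul_inv_cancel_right]
  have c1 : (f * t * f) z = w⁻¹ := by
    rw [MulAut.mul_apply, MulAut.mul_apply, b4, b1, map_mul, map_inv, b3, b4]; group
  have c2 : (f * t * f) w = z := by
    rw [MulAut.mul_apply, MulAut.mul_apply, b3, map_mul t, b1, b2, mul_assoc, a5, inv_mul_cancel_left, b4]
  have m : x * y ^ k * x ∈ 𝐍(R) := mul_mem (mul_mem hx (pow_mem hy k)) hx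
  refine ⟨_, mul_mem m m, fun r hr => ?_⟩
  obtain ⟨i, j, rfl⟩ := gen2 c e hz.1 z1 hw.1 (fun q => nw ((ax_zp c e nx hz z1).le q).2) hr
  rw [← MulAut.conj_apply, map_mul MulAut.conj, map_mul MulAut.conj, map_mul MulAut.conj, ← hf, ← ht, MulAut.mul_apply, map_mul, map_pow, map_pow, c1, c2, map_mul,
    map_pow, map_pow, map_inv, c1, c2, (Commute.pow_pow a5 i j).eq, mul_inv_rev, inv_pow, inv_pow]

/-- With the same axis `zpowers z` both elements act on `z' ∈ R ∖ zpowers z` by multiplication with a power of `z`, so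
`y⁻¹ * x ^ i ∈ 𝐂(R)` for some `i`. -/
theorem same_axis (c : Nat.card R = 25) (e : ∀ r ∈ R, r ^ 5 = 1) (ox : x ^ 5 = 1) (oy : y ^ 5 = 1) (hx : x ∈ 𝐍(R))
    (hy : y ∈ 𝐍(R)) (nx : x ∉ 𝐂(R)) (eq : R ⊓ 𝐂[x] = R ⊓ 𝐂[y]) : y ∈ 𝐂(R) ⊔ zpowers x := by
  by_cases ny : y ∈ 𝐂(R)
  · exact mem_sup_left ny
  obtain ⟨a, ha, z, hz, na, z1, ez⟩ := exists_ncent c ox hx nx
  have k := ax_zp c e nx hz z1
  obtain ⟨i, hi⟩ := mem_powers_iff_mem_zpowers.2 ((k.trans eq).ge (axis c oy hy ny ha))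
  have a1 := tv_pow ez (mem_cent1.1 hz.2) i
  dsimp only at hi
  have a2 : Commute a (y⁻¹ * x ^ i) := by
    change _ * _ = _ * _
    rw [mul_assoc, a1, hi]; group
  have a3 : Commute z (y⁻¹ * x ^ i) :=
    (Commute.inv_right (mem_cent1.1 (eq.le hz).2)).mul_right (Commute.pow_right (mem_cent1.1 hz.2) i)
  have m : y⁻¹ * x ^ i ∈ 𝐂(R) := mem_cent.2 fun r hr => by
    obtain ⟨l, j, rfl⟩ := gen2 c e hz.1 z1 ha (fun q => na (k.le q).2) hr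
    exact ((a3.pow_left l).mul_left (a2.pow_left j)).eq
  have := mul_mem (mem_sup_right (S := 𝐂(R)) (pow_mem (mem_zpowers x) i)) (inv_mem (mem_sup_left (T := zpowers x) m))
  rwa [mul_inv_rev, inv_inv, mul_inv_cancel_left] at this

namespace F5

variable (h : F5 φ)
include h

theorem cardP (hP : Syl 5 P ⊤) : Nat.card P = 5 ^ 3 := by
  haveI := Fact.mk Nat.prime_five
  rcases h.card with q | q
  exacts [syl_card (m := 354816) hP (by rw [card_top, q]; rfl) (by decide),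
    syl_card (m := 7185024) hP (by rw [card_top, q]; rfl) (by decide)]

theorem nR (hP : Syl 5 P ⊤) (l : R ≤ P) (c : Nat.card R = 25) : P ≤ 𝐍(R) := by
  haveI := Fact.mk Nat.prime_five
  have k := h.cardP hP
  have g := nil_norm_grow hP.nil (lt_of_le_of_ne l fun q => by rw [q, k] at c; omega)
  by_contra n
  have := card_mid (a := 2) (lt_of_le_of_ne inf_le_left fun q => n (q.ge.trans inf_le_right)) k (by simpa [c] using card_dvd g.le)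
  exact g.ne (eq_of_le_of_card_le g.le (by rw [this, c]; rfl))

/-- `H = 𝐂(R) ⊔ P` has order dividing `125 * 9` (`card_cent`; if `¬ P ≤ 𝐂(R)` then `125 ∤ |𝐂(R)|`, since a Sylow subgroup centralizing
`R` is abelian, so `P` is abelian), so its Sylow 5-subgroup is normal (divisors of 9 that are `≡ 1 mod 5`). -/
theorem nml (hP : Syl 5 P ⊤) (l : R ≤ P) (c : Nat.card R = 25) : 𝐂(R) ≤ 𝐍(P) := by
  haveI := Fact.mk Nat.prime_five
  have s : Syl 5 P (𝐂(R) ⊔ P) := hP.of_le le_sup_right le_top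
  have k1 := PGroup.card_sup_mul_card_inf (norm_cent (h.nR hP l c))
  have k2 := BG.card_mul_relIndex s.le
  have d : P.relIndex (𝐂(R) ⊔ P) ∣ 125 * 9 := by
    refine Dvd.dvd.trans ?_ (h.card_cent c)
    rw [← k2, mul_assoc, mul_comm (Nat.card 𝐂(R))] at k1
    exact ⟨_, (Nat.eq_of_mul_eq_mul_left Nat.card_pos k1).symm⟩
  have d9 : 𝐍(P).relIndex (𝐂(R) ⊔ P) ∣ 3 ^ 2 := (relIndex_dvd_left (le_norm P) _).trans
    ((((Nat.Prime.coprime_iff_not_dvd Nat.prime_five).2 s.not_dvd').pow_left 3).symm.dvd_of_dvd_mul_left d)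
  have m := syl_mod Nat.prime_five s
  obtain ⟨j, hj, e⟩ := (Nat.dvd_prime_pow Nat.prime_three).1 d9
  rw [e] at m
  have : j = 0 := by interval_cases j <;> simp_all
  rw [this, pow_zero, relIndex_eq_one] at e
  exact le_sup_left.trans e

/-- Let `R = P ⊓ P'` have order 25, `P ≠ P'`; `R` is normal in both.  If `P' ≤ 𝐂(R)` then `P' ≤ 𝐍(P)` (`nml`), `P' = P`; the same with the
roles exchanged.  So `x₀ ∈ P ∖ 𝐂(R)`, `y ∈ P' ∖ 𝐂(R)`.  Same axis: `y ∈ 𝐍(P)`, so `y ∈ P`, `P' = R ⊔ zpowers y ≤ P`.  Otherwise `g` from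
`exists_neg`; `g * g ∈ 𝐂(R)` has odd order `k`, `u = g ^ k` is an involution inverting `R`.  `⁅u, x₀⁆ ∈ 𝐂(R)`, so `u` normalizes
`𝐂(R) ⊔ P` and `P` (`nml`), `u x₀ u⁻¹ = x₀ r` with `r ∈ P ⊓ 𝐂(R) = R`, and `x = x₀ r ^ 3` commutes with `u`: `no_inv`. -/
theorem inf_le (hP : Syl 5 P ⊤) {g : S} (hg : g ∉ 𝐍(P)) : Nat.card ↥(P ⊓ g ⋆ P) * 5 ^ 2 ∣ Nat.card P := by
  haveI := Fact.mk Nat.prime_five
  haveI := Fact.mk Nat.prime_two
  have hQ : Syl 5 (g ⋆ P) ⊤ := hP.conj_top g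
  have ne : P ≠ g ⋆ P := fun q => hg (norm_of_conj_eq q.symm)
  obtain ⟨Q, eQ⟩ : ∃ Q, Q = g ⋆ P := ⟨_, rfl⟩
  rw [← eQ] at hQ ne ⊢
  have cP := h.cardP hP
  have lt : P ⊓ Q < P := lt_of_le_of_ne inf_le_left fun q => ne (hP.eq_of_le' hQ (q.ge.trans inf_le_right))
  obtain ⟨k, hk, ek⟩ := (Nat.dvd_prime_pow Nat.prime_five).1 (cP ▸ card_dvd lt.le)
  by_cases k1 : k ≤ 1
  · rw [ek, cP, ← pow_add]
    exact pow_dvd_pow 5 (by omega)
  exfalso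
  have c : Nat.card ↥(P ⊓ Q) = 25 := card_mid (a := 2) lt cP (ek ▸ pow_dvd_pow 5 (by omega))
  obtain ⟨R, eR⟩ : ∃ R, R = P ⊓ Q := ⟨_, rfl⟩
  have lP : R ≤ P := eR ▸ inf_le_left
  have lQ : R ≤ Q := eR ▸ inf_le_right
  rw [← eR] at c
  have e : ∀ r ∈ R, r ^ 5 = 1 := fun r hr => h.exp5 hP.pgroup (lP hr)
  have nP := h.nml hP lP c
  obtain ⟨x, hx, nx⟩ : ∃ x ∈ P, x ∉ 𝐂(R) := by
    by_contra! q
    exact ne (hP.eq_of_le' hQ (hQ.ge_of_norm_p' le_top hP.pgroup (le_trans q (h.nml hQ lQ c))))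
  obtain ⟨y, hy, ny⟩ : ∃ y ∈ Q, y ∉ 𝐂(R) := by
    by_contra! q
    exact ne (hQ.eq_of_le' hP (hP.ge_of_norm_p' le_top hQ.pgroup (le_trans q nP))).symm
  have x5 := h.exp5 hP.pgroup hx
  have y5 := h.exp5 hQ.pgroup hy
  have xN := h.nR hP lP c hx
  have yN := h.nR hQ lQ c hy
  have mP : ∀ w ∈ 𝐍(P), w ^ 5 = 1 → w ∈ P := fun w hw w5 => by
    by_cases w1 : w = 1
    · exact w1 ▸ one_mem _
    exact hP.ge_of_norm_p' le_top (IsPGroup.of_card (n := 1) (card_zp5 w5 w1)) (zpowers_le.2 hw) (mem_zpowers w)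
  by_cases eq : R ⊓ 𝐂[x] = R ⊓ 𝐂[y]
  · exact ny (ab25 c (eR.ge ⟨mP y (sup_le nP (zpowers_le.2 (le_norm P hx)) (same_axis c e x5 y5 xN yN nx eq)) y5, hy⟩))
  obtain ⟨t, tN, ht⟩ := exists_neg c e x5 y5 xN yN nx ny eq
  have t2 : t * t ∈ 𝐂(R) := mem_cent.2 fun r hr => by
    have := ht _ (inv_mem hr)
    rw [inv_inv, ← ht r hr] at this
    conv_lhs => rw [← this]
    group
  obtain ⟨m, hm⟩ := Nat.not_even_iff_odd.1 fun q => h.odd_cent c (even_iff_two_dvd.1 q)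
  obtain ⟨u, eu⟩ : ∃ u, u = (t * t) ^ m * t := ⟨_, rfl⟩
  have hu : ∀ r ∈ R, u * r * u⁻¹ = r⁻¹ := fun r hr => by
    rw [eu, mul_inv_rev, ← mul_assoc, mul_assoc _ t, mul_assoc _ (t * r), ht r hr, ← mem_cent.1 (pow_mem t2 m) _ (inv_mem hr),
      mul_inv_cancel_right]
  have u2 : u ^ 2 = 1 := by
    have := congrArg Subtype.val (pow_card_eq_one' (x := (⟨_, t2⟩ : 𝐂(R))))
    rw [hm] at this
    change (t * t) ^ (2 * m + 1) = 1 at this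
    rw [← this, eu, ← pow_two, ← pow_mul, ← pow_succ, ← pow_mul, ← pow_mul, mul_comm]
  obtain ⟨a, ha, z, hz, -, z1, -⟩ := exists_ncent c x5 xN nx
  have ou : orderOf u = 2 := orderOf_eq_prime u2 fun q => by
    have := hu z hz.1
    rw [q, one_mul, inv_one, mul_one, eq_inv_iff_mul_eq_one, ← pow_two, ← orderOf_dvd_iff_pow_eq_one, ord5 (e z hz.1) z1] at this
    omega
  obtain ⟨w, ew⟩ : ∃ w, w = u * x * u⁻¹ * x⁻¹ := ⟨_, rfl⟩
  have ui : u⁻¹ = u := inv_eq_of_mul_eq_one_right (pow_two u ▸ u2)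
  have wC : w ∈ 𝐂(R) := mem_cent.2 fun r hr => by
    have h2 := hu _ (inv_mem hr)
    rw [inv_inv] at h2
    have h3 : u⁻¹ * (x⁻¹ * r * x) * u = (x⁻¹ * r * x)⁻¹ := by
      have := hu _ (conj_mem_of_norm' xN hr)
      rw [ui] at this ⊢
      exact this
    calc r * w = u * r⁻¹ * u⁻¹ * w := by rw [h2]
      _ = u * x * (x⁻¹ * r * x)⁻¹ * u⁻¹ * x⁻¹ := by rw [ew]; group
      _ = w * r := by rw [← h3, ew]; group
  have e1 : u * x * u⁻¹ = w * x := by rw [ew, inv_mul_cancel_right]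
  have wP : w ∈ P := by
    have := mP _ (mul_mem (nP wC) (le_norm P hx)) (by rw [← e1, conj_pow, x5, mul_one, mul_inv_cancel])
    simpa using mul_mem this (inv_mem hx)
  have eC : R = P ⊓ 𝐂(R) := eq_of_le_of_card_le (le_inf lP (ab25 c)) (by
    rw [card_mid (a := 2) (lt_of_le_of_ne inf_le_left fun q => nx (q.ge hx).2) cP (by simpa [c] using card_dvd (le_inf lP (ab25 c))), c]
    rfl)
  have wR : w ∈ R := eC.ge ⟨wP, wC⟩
  have n' : w ^ 3 * x ∉ 𝐂(R) := fun q => nx (by simpa using mul_mem (inv_mem (pow_mem wC 3)) q)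
  refine h.no_inv c ou hu (ord5 (h.exp5 hP.pgroup (mul_mem (pow_mem wP 3) hx)) fun q => n' (q ▸ one_mem _))
    (mul_mem (le_norm R (pow_mem wR 3)) xN) n' ?_
  have e2 : (w ^ 3)⁻¹ * w = w ^ 3 := by
    rw [inv_mul_eq_iff_eq_mul, ← pow_add, show 3 + 3 = 5 + 1 from rfl, pow_succ, e w wR, one_mul]
  calc u * (w ^ 3 * x) = u * w ^ 3 * u⁻¹ * (u * x * u⁻¹) * u := by group
    _ = w ^ 3 * x * u := by rw [hu _ (pow_mem wR 3), e1, ← mul_assoc, e2]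

end F5

end Cfsg.Lib.SPL
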