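import Cfsg.Agent.Lib.SPL.F5b

/-!
# S3586: the orders of `HS` and `McL`, 5-local analysis, III: the normalizer of a Sylow 5-subgroup
-/

set_option autoImplicit false
set_option linter.unusedSectionVars false

namespace Cfsg.Lib.SPL.F5

open Subgroup Cfsg.Lib.BG Cfsg.Lib.Spec Cfsg.Lib.Transfer

variable {S V : Type*} [Group S] [Finite S] [CommGroup V] [Finite V] {φ : S →* MulAut V} {P U : Subgroup S} {z : S} (h : F5 φ)
include h

omit h in
theorem c_sub {p k : ℕ} (hp : p.Prime) {Q : Subgroup S} (d : p ^ k ∣ Nat.card Q) : ∃ R ≤ Q, Nat.card R = p ^ k := by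
  have := Fact.mk hp
  obtain ⟨K, hK⟩ := Sylow.exists_subgroup_card_pow_prime p d
  exact ⟨K.map Q.subtype, map_subtype_le K, (card_map_of_injective Q.subtype_injective).trans hK⟩

omit h in
theorem c_sub25 (hP : IsPGroup 5 P) (n : ¬ Nat.card P ∣ 5) : ∃ R ≤ P, Nat.card R = 25 := by
  have := Fact.mk Nat.prime_five
  obtain ⟨k, e⟩ := IsPGroup.iff_card.1 hP
  refine c_sub Nat.prime_five (k := 2) (e ▸ pow_dvd_pow 5 (by_contra fun l => n ?_))
  rw [e]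
  exact (pow_dvd_pow 5 (by omega : k ≤ 1)).trans (by norm_num)

theorem c_125 (hP : Syl 5 P ⊤) : Nat.card P = 125 := by
  have := Fact.mk Nat.prime_five
  obtain ⟨T, rfl⟩ := Syl.top_iff_sylow.1 hP
  rw [T.card_eq_multiplicity]
  rcases h.card with e | e <;> rw [e] <;> decide +kernel

omit h in
theorem c_cop (hP : IsPGroup 5 P) (hU : IsPGroup 2 U) : (Nat.card U).Coprime (Nat.card P) := by
  have := Fact.mk Nat.prime_five
  have := Fact.mk Nat.prime_two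
  exact IsPGroup.coprime_card_of_ne 2 5 (by norm_num) U P hU hP

omit h in
theorem c_ord (hU : IsPGroup 2 U) {u : S} (hu : u ∈ U) : ∃ k, orderOf u = 2 ^ k := by
  have := Fact.mk Nat.prime_two
  obtain ⟨k, e⟩ := IsPGroup.iff_orderOf.1 hU ⟨u, hu⟩
  exact ⟨k, by rw [← e, orderOf_mk]⟩

omit h in
theorem c_dvd {W : Subgroup S} {s : Set S} (hs : ∀ u ∈ W, ∀ x ∈ s, u * x * u⁻¹ ∈ s) {d : ℕ}
    (k : ∀ x ∈ s, d ∣ 𝐂[x].relIndex W) : d ∣ Nat.card s := by
  classical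
  let _ : MulAction W s :=
    { smul := fun u x => ⟨u * x * (u : S)⁻¹, hs u u.2 x x.2⟩
      one_smul := fun x => Subtype.ext (by change ((1 : W) : S) * x * ((1 : W) : S)⁻¹ = x; simp)
      mul_smul := fun u v x => Subtype.ext (by
        change ((u * v : W) : S) * x * ((u * v : W) : S)⁻¹ = u * (v * x * (v : S)⁻¹) * (u : S)⁻¹
        simp [mul_assoc]) }
  have := Fintype.ofFinite (MulAction.orbitRel.Quotient W s)
  rw [Nat.card_congr (MulAction.selfEquivSigmaOrbits W s), Nat.card_sigma]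
  refine Finset.dvd_sum fun ω _ => ?_
  rw [Nat.card_coe_set_eq, ← MulAction.index_stabilizer]
  have e : ∀ x : s, MulAction.stabilizer W x = 𝐂[(x : S)].subgroupOf W := fun x => Subgroup.ext fun u => by
    rw [MulAction.mem_stabilizer_iff, mem_subgroupOf, mem_cent1, Subtype.ext_iff]
    exact mul_inv_eq_iff_eq_mul
  rw [e]
  exact k _ (Subtype.prop _)

omit [Finite S] h in
theorem c_num {n m N : ℕ} (e : n * m = N) (hN : N = 354816 ∨ N = 7185024) (h1 : n % 25 = 1) (h7 : ¬ 7 ∣ m)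
    (h11 : ¬ 11 ∣ m) (h16 : ¬ 16 ∣ m) (h81 : ¬ 81 ∣ m) : N = 7185024 ∧ m = 24 := by
  have d : m ∣ 2 ^ 9 * 3 ^ 6 * 7 * 11 := (Dvd.intro_left n e).trans (by rcases hN with rfl | rfl <;> norm_num)
  have d := ((Nat.Prime.coprime_iff_not_dvd (by norm_num)).2 h7).symm.dvd_of_dvd_mul_right
    (((Nat.Prime.coprime_iff_not_dvd (by norm_num)).2 h11).symm.dvd_of_dvd_mul_right d)
  obtain ⟨a, b, ha, hb, rfl⟩ := (Nat.dvd_mul).1 d
  obtain ⟨i, -, rfl⟩ := (Nat.dvd_prime_pow Nat.prime_two).1 ha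
  obtain ⟨j, -, rfl⟩ := (Nat.dvd_prime_pow Nat.prime_three).1 hb
  have hi : i < 4 := by_contra fun l => h16 (Dvd.dvd.mul_right (pow_dvd_pow 2 (not_lt.1 l)) _)
  have hj : j < 4 := by_contra fun l => h81 (Dvd.dvd.mul_left (pow_dvd_pow 3 (not_lt.1 l)) _)
  interval_cases i <;> interval_cases j <;> omega

/-- a subgroup of order 25 of `P ⊓ 𝐂[z]` contradicts `odd_cent` -/
theorem fix_le (hP : IsPGroup 5 P) (oz : orderOf z = 2) : Nat.card ↥(P ⊓ 𝐂[z]) ∣ 5 := by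
  by_contra n
  obtain ⟨R, l, c⟩ := c_sub25 (hP.to_le inf_le_left) n
  exact h.odd_cent c (oz ▸ 𝐂(R).orderOf_dvd_natCard (mem_cent.2 fun r hr => mem_cent1.1 (l hr).2))

/-- If `P ⊓ 𝐂[z] = ⊥`, `z` inverts `P`, which is abelian.  Another involution `u ∈ U` commuting with `z` would give
`P = (P ⊓ 𝐂[u]) (P ⊓ 𝐂[u z])` of order `≤ 25` (`fix_le`; `a ^ 2 = (a · u a u⁻¹) (a · (u a u⁻¹)⁻¹)`).  So `z` is the only involution of `U`,
`U` acts semiregularly, `|U| ∣ 124`. -/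
theorem two_a (hP : Syl 5 P ⊤) (hU : IsPGroup 2 U) (n : U ≤ 𝐍(P)) (hz : z ∈ U) (oz : orderOf z = 2) (c : U ≤ 𝐂[z])
    (e : P ⊓ 𝐂[z] = ⊥) : Nat.card U ∣ 4 := by
  have := Fact.mk Nat.prime_two
  have := Fact.mk Nat.prime_five
  have c5 := h.c_125 hP
  have s0 : SemiReg P (zpowers z) := semiReg_prime (by rw [Nat.card_zpowers, oz]; exact Nat.prime_two) (by rwa [cent_zpowers])
  have iv : ∀ a ∈ P, z * a * z⁻¹ = a⁻¹ := fun a ha =>
    Frobenius.inv_eq_of_semiReg (zpowers_le.2 (n hz)) s0 (mem_zpowers z) oz ha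
  have ab : ∀ a ∈ P, ∀ b ∈ P, a * b = b * a := fun a ha b hb => inv_injective (by
    rw [← iv _ (mul_mem ha hb), mul_inv_rev, ← iv a ha, ← iv b hb]; group)
  have s : SemiReg P U := Frobenius.semiReg_of_prime_order fun u hu pu k hk e' => by
    obtain ⟨j, o⟩ := c_ord hU hu
    have ou : orderOf u = 2 := (Nat.prime_dvd_prime_iff_eq pu Nat.prime_two).1 (pu.dvd_of_dvd_pow o.dvd)
    by_cases uz : u = z
    · exact mem_bot.1 (e ▸ (⟨hk, mem_cent1.2 (uz ▸ e'.symm)⟩ : k ∈ P ⊓ 𝐂[z]))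
    exfalso
    have u2 : u * u = 1 := by rw [← pow_two, ← ou, pow_orderOf_eq_one]
    have z2 : z * z = 1 := by rw [← pow_two, ← oz, pow_orderOf_eq_one]
    have cm : u * z = z * u := mem_cent1.1 (c hu)
    have o2 : orderOf (u * z) = 2 := orderOf_eq_prime
      (by rw [pow_two, ← mul_assoc, mul_assoc u z u, ← cm, ← mul_assoc, u2, one_mul, z2])
      fun k => uz (by rw [eq_inv_of_mul_eq_one_left k, inv_eq_of_mul_eq_one_left z2])
    have cj : ∀ a ∈ P, u * a * u⁻¹ ∈ P := fun a ha => (mem_normalizer_iff.1 (n hu) a).1 ha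
    have cc : ∀ a, u * (u * a * u⁻¹) * u⁻¹ = a := fun a => by
      rw [show u * (u * a * u⁻¹) * u⁻¹ = u * u * a * (u * u)⁻¹ by group, u2]; simp
    have m1 : ∀ a ∈ P, a * (u * a * u⁻¹) ∈ P ⊓ 𝐂[u] := fun a ha => ⟨mul_mem ha (cj a ha), mem_cent1.2 (by
      rw [eq_comm, ← mul_inv_eq_iff_eq_mul, ab a ha _ (cj a ha)]
      conv_rhs => rw [← cc a]
      rw [cc a, ab _ (cj a ha) a ha]
      calc u * (a * (u * a * u⁻¹)) * u⁻¹ = u * a * u⁻¹ * (u * (u * a * u⁻¹) * u⁻¹) := by group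
        _ = a * (u * a * u⁻¹) := by rw [cc a, ab _ (cj a ha) a ha])⟩
    have m2 : ∀ a ∈ P, a * (u * a * u⁻¹)⁻¹ ∈ P ⊓ 𝐂[u * z] := fun a ha => ⟨P.mul_mem ha (P.inv_mem (cj a ha)), mem_cent1.2 (by
      rw [eq_comm, ← mul_inv_eq_iff_eq_mul]
      calc u * z * (a * (u * a * u⁻¹)⁻¹) * (u * z)⁻¹ = u * (z * (a * (u * a * u⁻¹)⁻¹) * z⁻¹) * u⁻¹ := by group
        _ = u * (u * a * u⁻¹) * u⁻¹ * (u * a * u⁻¹)⁻¹ := by rw [iv _ (mul_mem ha (inv_mem (cj a ha)))]; group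
        _ = _ := by rw [cc a])⟩
    have sq : ∀ a ∈ P, (a * (u * a * u⁻¹)⁻¹ * (a * (u * a * u⁻¹))) ^ 3 = a := fun a ha => by
      rw [ab a ha _ (cj a ha), mul_assoc, inv_mul_cancel_left, ← pow_two, ← pow_mul, show 2 * 3 = 5 + 1 from rfl, pow_succ,
        h.exp5 hP.pgroup ha, one_mul]
    have := Nat.card_le_card_of_injective (fun a : P => ((⟨_, m1 a a.2⟩ : ↥(P ⊓ 𝐂[u])), (⟨_, m2 a a.2⟩ : ↥(P ⊓ 𝐂[u * z]))))
      fun a b k => Subtype.ext (by
        have k1 := congrArg (fun x => (x.1 : S)) k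
        have k2 := congrArg (fun x => (x.2 : S)) k
        dsimp only at k1 k2
        rw [← sq a a.2, ← sq b b.2, k1, k2])
    have l1 := Nat.le_of_dvd (by norm_num) (h.fix_le hP.pgroup ou)
    have l2 := Nat.le_of_dvd (by norm_num) (h.fix_le hP.pgroup o2)
    rw [c5, Nat.card_prod] at this
    nlinarith
  have d := regular_norm_dvd_pred n s
  obtain ⟨k, e⟩ := IsPGroup.iff_card.1 hU
  rw [c5, e] at d
  rw [e]
  exact (Nat.Coprime.pow_left k (by norm_num : Nat.Coprime 2 31)).dvd_of_dvd_mul_right d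

/-- `C = P ⊓ 𝐂[z] = zpowers x` has order 5 and is normalized by `U`.  `U ⊓ 𝐂[x]` has exponent 2 (no 20).  If it contains an involution
`u ≠ z`, the four-group `A = ⟨z, u⟩` has `P ⊓ 𝐂[a] = C` for all `a ≠ 1` (`fix_le`), but these generate `P`
(`Lib/Coprime/Generation`).  So `U ⊓ 𝐂[x] = zpowers z` and `U ⧸ zpowers z` embeds in `Aut(C)`, cyclic of order 4. -/
theorem two_b (hP : Syl 5 P ⊤) (hU : IsPGroup 2 U) (n : U ≤ 𝐍(P)) (hz : z ∈ U) (oz : orderOf z = 2) (c : U ≤ 𝐂[z])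
    (e : P ⊓ 𝐂[z] ≠ ⊥) : Nat.card U ∣ 8 ∧ ∃ g ∈ U, U ≤ zpowers g ⊔ zpowers z := by
  have := Fact.mk Nat.prime_five
  have c5 : Nat.card ↥(P ⊓ 𝐂[z]) = 5 := ((Nat.dvd_prime Nat.prime_five).1 (h.fix_le hP.pgroup oz)).resolve_left
    fun k => e (card_eq_one.1 k)
  generalize hC : P ⊓ 𝐂[z] = C at c5 e
  have CP : C ≤ P := hC ▸ inf_le_left
  have nC : U ≤ 𝐍(C) := hC ▸ norm_inf n (c.trans (le_norm _))
  have zC : z ∈ 𝐂(C) := mem_cent.2 fun a ha => mem_cent1.1 (hC.ge ha).2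
  obtain ⟨x, hx, ox⟩ := Core.exists_mem_orderOf_eq_prime Nat.prime_five c5.symm.dvd
  have e2 : ∀ u ∈ U ⊓ 𝐂(C), u ^ 2 = 1 := fun u hu => by
    obtain ⟨k, o⟩ := c_ord hU hu.1
    rw [← orderOf_dvd_iff_pow_eq_one, o]
    by_contra l
    refine h.sp.comm (mem_cent.1 hu.2 x hx) (a := 5) (b := 4) ox.symm.dvd ?_ (by decide) (by decide)
    rw [o]
    exact pow_dvd_pow 2 (show 2 ≤ k from by_contra fun m => l ((pow_dvd_pow 2 (by omega : k ≤ 1)).trans (by norm_num)))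
  have ab : IsMulCommutative ↥(U ⊓ 𝐂(C)) := ⟨⟨fun a b => Subtype.ext (by
    have k := e2 _ (mul_mem a.2 b.2)
    have ka := e2 _ a.2
    have kb := e2 _ b.2
    rw [pow_two] at k ka kb
    calc (a : S) * b = ((a : S) * b)⁻¹ := eq_inv_of_mul_eq_one_left k
      _ = b * a := by rw [mul_inv_rev, inv_eq_of_mul_eq_one_left ka, inv_eq_of_mul_eq_one_left kb])⟩⟩
  have cy : IsCyclic ↥(U ⊓ 𝐂(C)) := by_contra fun nc => by
    have := Coprime.le_of_forall_centralizer_le (K := P) (H := C) ab nc (inf_le_left.trans n)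
      (c_cop hP.pgroup (hU.to_le inf_le_left)) fun a ha a1 => (eq_of_le_of_card_ge
        (le_inf CP fun b hb => mem_cent1.2 (mem_cent.1 ha.2 b hb))
        (c5 ▸ Nat.le_of_dvd (by norm_num) (h.fix_le hP.pgroup (orderOf_eq_prime (e2 a ha) a1)))).ge
    have := card_le_of_le this
    rw [h.c_125 hP] at this
    omega
  have c2 : Nat.card ↥(U ⊓ 𝐂(C)) ∣ 2 := by
    obtain ⟨g, hg⟩ := IsCyclic.exists_ofOrder_eq_natCard (α := ↥(U ⊓ 𝐂(C)))
    rw [← hg, orderOf_dvd_iff_pow_eq_one]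
    exact Subtype.ext (e2 g g.2)
  have ez : zpowers z = U ⊓ 𝐂(C) := eq_of_le_of_card_ge (zpowers_le.2 ⟨hz, zC⟩)
    (by rw [Nat.card_zpowers, oz]; exact Nat.le_of_dvd (by norm_num) c2)
  refine ⟨?_, ?_⟩
  · have d := index_cent_prime_dvd c5 nC
    rw [← (𝐂(C).subgroupOf U).card_mul_index, ← inf_subgroupOf_left,
      Nat.card_congr (subgroupOfEquivOfLe inf_le_left).toEquiv, inf_subgroupOf_left]
    exact mul_dvd_mul c2 d
  have : IsCyclic C := isCyclic_of_prime_card c5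
  have : IsCyclic (ZMod (Nat.card C))ˣ := by rw [c5]; exact ZMod.isCyclic_units_prime Nat.prime_five
  have : IsCyclic (MulAut C) := isCyclic_of_injective (IsCyclic.mulAutMulEquiv C).toMonoidHom (MulEquiv.injective _)
  let ψ : U →* MulAut C := C.normalizerMonoidHom.comp (inclusion nC)
  obtain ⟨⟨_, g, rfl⟩, hg⟩ := IsCyclic.exists_generator (α := ψ.range)
  refine ⟨g, g.2, fun u hu => ?_⟩
  obtain ⟨k, hk⟩ := hg ⟨_, ⟨u, hu⟩, rfl⟩
  have k1 : (g ^ k)⁻¹ * ⟨u, hu⟩ ∈ ψ.ker := by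
    rw [MonoidHom.mem_ker, map_mul, map_inv, map_zpow, inv_mul_eq_one]
    exact congrArg Subtype.val hk
  have k2 : ((g : S) ^ k)⁻¹ * u ∈ 𝐂(C) := by
    rw [← MonoidHom.comap_ker, normalizerMonoidHom_ker] at k1
    exact k1
  rw [← mul_inv_cancel_left ((g : S) ^ k) u]
  exact mul_mem (mem_sup_left (zpow_mem_zpowers _ _))
    (mem_sup_right (ez ▸ ⟨U.mul_mem (U.inv_mem (U.zpow_mem g.2 k)) hu, k2⟩))

/-- `z` a central involution of `U`, `two_a`, `two_b`: `|U| = 8`, `U = ⟨g, z⟩` is abelian.  If `orderOf g ≠ 8` then `orderOf g = 4`,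
`z ∉ zpowers g`; apply `two_a`, `two_b` to `u = g * g`: `U ≤ zpowers g' ⊔ zpowers u`, but all squares lie in `zpowers u`, so this
group has order `≤ 4`. -/
theorem two (hP : Syl 5 P ⊤) (hU : IsPGroup 2 U) (n : U ≤ 𝐍(P)) : Nat.card U ∣ 4 ∨ Nat.card U = 8 ∧ 8 ∈ Spec.sp S := by
  have := Fact.mk Nat.prime_two
  by_cases u0 : U = ⊥
  · exact .inl (by rw [u0, card_bot]; norm_num)
  obtain ⟨z', hz', z1, cz'⟩ := Frobenius.exists_mem_center_of_nil (pgroup_nil hU) u0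
  obtain ⟨z, hz, oz⟩ := Core.exists_mem_orderOf_eq_prime Nat.prime_two
    (pgroup_dvd_card (hU.to_le (zpowers_le.2 hz')) (zpowers_ne_bot.2 z1))
  have cz : U ≤ 𝐂[z] := fun a ha => by
    obtain ⟨k, rfl⟩ := hz
    exact cent1_le_cent1_zpow z' k (mem_cent1.2 (cz' a ha))
  have hz := zpowers_le.2 hz' hz
  have key : ∀ z ∈ U, orderOf z = 2 → U ≤ 𝐂[z] → ¬ Nat.card U ∣ 4 →
      Nat.card U ∣ 8 ∧ ∃ g ∈ U, U ≤ zpowers g ⊔ zpowers z := fun z hz oz cz k =>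
    h.two_b hP hU n hz oz cz fun e => k (h.two_a hP hU n hz oz cz e)
  have cs : ∀ g ∈ U, ∀ z : S, orderOf z = 2 → U ≤ 𝐂[z] → U ≤ zpowers g ⊔ zpowers z → Nat.card U ∣ orderOf g * 2 :=
    fun g hg z oz cz l => by
      refine (card_dvd_of_le l).trans ?_
      rw [← oz, ← Nat.card_zpowers, ← Nat.card_zpowers]
      exact Core.card_sup_dvd (zpowers_le.2 (centralizer_le_normalizer _ ((cent_zpowers z).ge (cz hg))))
  refine or_iff_not_imp_left.2 fun k => ?_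
  obtain ⟨d8, g, hg, l⟩ := key z hz oz cz k
  have c8 : Nat.card U = 8 := (by decide : ∀ m ≤ 8, m ∣ 8 → ¬ m ∣ 4 → m = 8) _ (Nat.le_of_dvd (by norm_num) d8) d8 k
  refine ⟨c8, by_contra fun n8 => ?_⟩
  have o4 : ∀ g ∈ U, 8 ∣ orderOf g * 2 → orderOf g = 4 := fun g hg d => by
    have d' := c8 ▸ U.orderOf_dvd_natCard hg
    exact (by decide : ∀ m ≤ 8, m ∣ 8 → 8 ∣ m * 2 → m ≠ 8 → m = 4) _ (Nat.le_of_dvd (by norm_num) d') d' d
      fun e => n8 ⟨g, e⟩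
  have og := o4 g hg (c8 ▸ cs g hg z oz cz l)
  have ou : orderOf (g ^ 2) = 2 := by rw [orderOf_pow' _ two_ne_zero, og]; rfl
  have cg : U ≤ 𝐂[g] := l.trans (sup_le (zpowers_le.2 (mem_cent1.2 rfl)) (zpowers_le.2 (mem_cent1_symm (cz hg))))
  have cu := cg.trans (cent1_le_cent1_pow g 2)
  obtain ⟨-, g', hg', l'⟩ := key _ (pow_mem hg 2) ou cu k
  have og' := o4 g' hg' (c8 ▸ cs g' hg' _ ou cu l')
  have sq : g' ^ 2 ∈ zpowers (g ^ 2) := by
    obtain ⟨_, ⟨i, rfl⟩, _, ⟨j, rfl⟩, e⟩ := Frobenius.exists_mul_of_mem_sup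
      (zpowers_le.2 (centralizer_le_normalizer _ ((cent_zpowers g).ge (cg hz)))) (l hg')
    have cm : Commute g z := mem_cent1.1 (cz hg)
    refine ⟨i, ?_⟩
    dsimp only at e ⊢
    rw [e, (cm.zpow_zpow i j).mul_pow, ← zpow_natCast (z ^ j), ← zpow_mul, mul_comm j, zpow_mul, zpow_natCast, ← oz,
      pow_orderOf_eq_one, one_zpow, mul_one, oz, ← zpow_natCast, ← zpow_natCast, ← zpow_mul, ← zpow_mul, mul_comm]
  have ez : zpowers (g' ^ 2) = zpowers (g ^ 2) := eq_of_le_of_card_ge (zpowers_le.2 sq) (by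
    rw [Nat.card_zpowers, Nat.card_zpowers, ou, orderOf_pow' _ two_ne_zero, og']; decide)
  have := card_le_of_le (l'.trans (sup_le le_rfl (ez ▸ zpowers_le.2 (pow_mem (mem_zpowers g') 2))))
  rw [Nat.card_zpowers, og'] at this
  omega

/-- `W ≤ 𝐍(P)` of order 81.  `P₁ = P ⊓ 𝐂(W)` has order `≡ 125 mod 3`, so 5 or 125; 125 contradicts `b3`.  The 120 elements of
`P ∖ P₁` form orbits of length `3 ^ i`, `i ≥ 1`, not all divisible by 9: some `x ∉ P₁` is centralized by `W₁ ≤ W` of order 27,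
`P ⊓ 𝐂(W₁)` has order `≥ 25`, against `b3`. -/
theorem three (hP : Syl 5 P ⊤) : ¬ 81 ∣ Nat.card 𝐍(P) := by
  intro d
  have := Fact.mk Nat.prime_three
  have := Fact.mk Nat.prime_five
  obtain ⟨W, l, cW⟩ := c_sub Nat.prime_three (k := 4) d
  have c5 := h.c_125 hP
  have b3 : ∀ X : Subgroup S, 27 ∣ Nat.card X → Nat.card ↥(P ⊓ 𝐂(X)) ∣ 5 := fun X k => by_contra fun n => by
    obtain ⟨R, l, c⟩ := c_sub25 (hP.pgroup.to_le inf_le_left) n
    exact h.b3 R c (k.trans (card_dvd_of_le (le_centralizer_iff.1 (l.trans inf_le_right))))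
  have c1 : Nat.card ↥(P ⊓ 𝐂(W)) = 5 := by
    have m := card_modEq_card_inf_centralizer (IsPGroup.of_card cW) l
    rcases (Nat.dvd_prime Nat.prime_five).1 (b3 W (by rw [cW]; norm_num)) with e | e
    · rw [c5, e] at m; exact absurd m (by decide)
    · exact e
  have k := c_dvd (W := W) (s := (P : Set S) \ (P ⊓ 𝐂(W) : Subgroup S)) (d := 9) (fun u hu x hx =>
    ⟨(mem_normalizer_iff.1 (l hu) x).1 hx.1, fun m => hx.2 ⟨hx.1,
      (mem_normalizer_iff.1 (norm_cent (le_norm W) hu) x).2 m.2⟩⟩) fun x hx => by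
    have e := (𝐂[x].subgroupOf W).card_mul_index
    obtain ⟨i, hi, ei⟩ := (Nat.dvd_prime_pow Nat.prime_three).1 (cW ▸ Dvd.intro_left _ e)
    by_contra n9
    have i1 : i ≤ 1 := by_contra fun m => n9 ((pow_dvd_pow 3 (by omega : 2 ≤ i)).trans ei.symm.dvd)
    rw [ei, cW, ← inf_subgroupOf_right, Nat.card_congr (subgroupOfEquivOfLe inf_le_right).toEquiv] at e
    have d27 : 27 ∣ Nat.card ↥(𝐂[x] ⊓ W) := by interval_cases i <;> omega
    have := eq_of_le_of_card_ge (inf_le_inf_left P (centralizer_le (inf_le_right : 𝐂[x] ⊓ W ≤ W)))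
      (c1 ▸ Nat.le_of_dvd (by norm_num) (b3 _ d27))
    exact hx.2 (this.ge ⟨hx.1, mem_cent.2 fun a ha => mem_cent1.1 ha.1⟩)
  rw [Nat.card_coe_set_eq, Set.ncard_sdiff (fun _ a => a.1), ← Nat.card_coe_set_eq, ← Nat.card_coe_set_eq] at k
  change 9 ∣ Nat.card P - Nat.card ↥(P ⊓ 𝐂(W)) at k
  rw [c5, c1] at k
  omega

/-- `n = 𝐍(P).index ≡ 1 mod 25` (`index_mod`, `inf_le`), `|𝐍(P)| = 125 m`, `7, 11 ∤ m` (`pow_dvd_norm`, 124), `16 ∤ m` (`two`), `81 ∤ m`.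
`HS`: `n m = 354816`, `m ∣ 72`, `m ≡ 16 mod 25`, impossible.  `McL`: `n m = 7185024`, `m ∣ 216`, `m ≡ 24 mod 25`, `m = 24`, `two`. -/
theorem main : Nat.card S = 898128000 ∧ 8 ∈ Spec.sp S := by
  have := Fact.mk Nat.prime_five
  obtain ⟨P, hP⟩ := Syl.exists (p := 5) (⊤ : Subgroup S)
  have c5 := h.c_125 hP
  have md := index_mod Nat.prime_five hP (k := 2) fun g hg => h.inf_le hP hg
  obtain ⟨m, e⟩ := c5 ▸ card_dvd_of_le (le_norm P)
  have e' := 𝐍(P).index_mul_card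
  have up : ∀ {a}, a ∣ m → a ∣ Nat.card 𝐍(P) := fun d => e ▸ d.mul_left 125
  have t : ∀ k, 2 ^ k ∣ m → 2 ^ k ∣ 4 ∨ 2 ^ k = 8 ∧ 8 ∈ Spec.sp S := fun k d => by
    obtain ⟨U, l, c⟩ := c_sub Nat.prime_two (up d)
    exact c ▸ h.two hP (IsPGroup.of_card c) l
  have pr : ∀ s : ℕ, s.Prime → 5 ≠ s → 5 * s ∉ om → ¬ s ∣ 124 → ¬ s ∣ m := fun s hs ne no nd d => by
    have := pow_dvd_norm (k := 1) Nat.prime_five hs ne (h.sp.not_mem no) hP.pgroup (by rw [pow_one]; exact up d)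
    rw [c5, pow_one] at this
    exact nd this
  obtain ⟨k1, rfl⟩ := c_num (n := 𝐍(P).index) (m := m) rfl (by rcases h.card with k | k <;> rw [e, k] at e' <;> [left; right] <;> nlinarith)
    md (pr 7 (by norm_num) (by norm_num) (by decide) (by norm_num)) (pr 11 (by norm_num) (by norm_num) (by decide) (by norm_num))
    (fun d => by rcases t 4 d with k | ⟨k, -⟩ <;> norm_num at k) fun d => h.three hP (up d)
  refine ⟨by rw [← e', e]; omega, ?_⟩
  rcases t 3 (by norm_num) with k | ⟨-, k⟩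
  · norm_num at k
  · exact k

end Cfsg.Lib.SPL.F5
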