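import Cfsg.Agent.Lib.SPL.Def

/-!
# S3586: a cyclic Sylow 3-subgroup of order 9 and an element of order 15
-/

set_option autoImplicit false

namespace Cfsg.Lib.SPL

open Subgroup Cfsg.Lib.BG Cfsg.Lib.Spec Cfsg.Lib.Transfer

variable {S : Type*} [Group S] [Finite S] {P R : Subgroup S} {u : S}

omit [Finite S] in
theorem f9_ord (o : orderOf u = 9) : orderOf (u ^ 3) = 3 := by rw [orderOf_pow' u (by decide), o]; decide

theorem f9_Q (h9 : ¬ 27 ∣ Nat.card S) (o : orderOf u = 9) {H : Subgroup S} (hu : u ∈ H) : Syl 3 (zpowers u) H := by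
  have c : Nat.card (zpowers u) = 3 ^ 2 := by rw [Nat.card_zpowers, o]; decide
  refine Syl.mk' (zpowers_le.2 hu) (IsPGroup.of_card c) fun d => h9 (Dvd.dvd.trans ?_ (card_subgroup_dvd_card H))
  rw [← BG.card_mul_relIndex (zpowers_le.2 hu), c]
  exact mul_dvd_mul_left 9 d

theorem f9_eq (o : orderOf u = 9) {x : S} (hx : x ∈ zpowers u) (ox : orderOf x = 3) : zpowers x = zpowers (u ^ 3) :=
  cyclic_eq_of_card (C := zpowers u) inferInstance (zpowers_le.2 hx) (zpowers_le.2 (npow_mem_zpowers u 3))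
    (by rw [Nat.card_zpowers, Nat.card_zpowers, ox, f9_ord o])

theorem f9_conj (h9 : ¬ 27 ∣ Nat.card S) (o : orderOf u = 9) {H : Subgroup S} (hu : u ∈ H) {x : S} (hx : x ∈ H)
    (ox : orderOf x = 3) : ∃ g ∈ H, zpowers (g * x * g⁻¹) = zpowers (u ^ 3) := by
  obtain ⟨g, hg, l⟩ := (f9_Q h9 o hu).exists_conj_le (Q := zpowers x)
    (IsPGroup.of_card (n := 1) (by rw [Nat.card_zpowers, ox]; decide)) (zpowers_le.2 hx)
  exact ⟨g, hg, f9_eq o (l (mem_map_of_mem (MulAut.conj g).toMonoidHom (mem_zpowers x)))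
    (((MulAut.conj g).orderOf_eq x).trans ox)⟩

theorem f9_bot (hno : 45 ∉ sp S) (o : orderOf u = 9) (hP : IsPGroup 5 P) : P ⊓ 𝐂[u] = ⊥ := by_contra fun e => by
  have : Fact (Nat.Prime 5) := ⟨by decide⟩
  obtain ⟨x, hx, ox⟩ := Core.exists_mem_orderOf_eq_prime (by decide : Nat.Prime 5) (pgroup_dvd_card (hP.to_le inf_le_left) e)
  have := mul_mem_sp_of_commute (mem_cent1.1 hx.2) (by rw [ox, o]; decide)
  rw [ox, o] at this
  exact hno this

theorem f9_pw {M : Subgroup S} {k : ℕ} (h : Syl 5 P M) (d : 5 ^ k ∣ Nat.card M) : 5 ^ k ∣ Nat.card P := by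
  have : Fact (Nat.Prime 5) := ⟨by decide⟩
  rw [← BG.card_mul_relIndex h.le] at d
  exact (Nat.Coprime.pow_left k ((Nat.Prime.coprime_iff_not_dvd (by decide)).2 h.not_dvd')).dvd_of_dvd_mul_right d

/-- `u` acts on the 5-group `P`, `P ⊓ 𝐂[u] = ⊥` (no 45).  `C = P ⊓ 𝐂[u ^ 3]` is `u`-invariant; the orbits of `zpowers u` on `C ∖ 1` have
length 3, those on `P ∖ C` length 9.  (E.g. `IsPGroup.card_modEq_card_fixedPoints` for the first claim; for the second, `zpowers u`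
acts freely on `P ∖ C`.) -/
theorem f9_count (hno : 45 ∉ sp S) (o : orderOf u = 9) (hP : IsPGroup 5 P) (hu : u ∈ 𝐍(P)) :
    Nat.card ↥(P ⊓ 𝐂[u ^ 3]) % 3 = 1 ∧ Nat.card P % 9 = Nat.card ↥(P ⊓ 𝐂[u ^ 3]) % 9 := by
  have c : Nat.card (zpowers u) = 3 ^ 2 := by rw [Nat.card_zpowers, o]; decide
  have l : zpowers u ≤ 𝐍(P) := zpowers_le.2 hu
  have n : zpowers u ≤ 𝐍(P ⊓ 𝐂[u ^ 3]) :=
    norm_inf l (norm_cent1 (zpowers_le.2 (mem_cent1.2 (Commute.self_pow u 3))))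
  constructor
  · have := card_modEq_card_inf_centralizer (IsPGroup.of_card c) n
    rwa [cent_zpowers, f9_bot hno o (hP.to_le inf_le_left), card_bot] at this
  · classical
    let _ : MulAction (zpowers u) P := MulAction.compHom P (inclusion l)
    let X : SubMulAction (zpowers u) P :=
      { carrier := {x | x ∉ (P ⊓ 𝐂[u ^ 3]).subgroupOf P}
        smul_mem' := fun a x hx e => hx ((mem_normalizer_iff.1 (n a.2) x.1).2 e) }
    have h1 := Frobenius.card_dvd_card_of_free (zpowers u) X fun a x e => by_contra fun a1 => by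
      obtain ⟨b, hb, ob⟩ := Core.exists_mem_orderOf_eq_prime Nat.prime_three (pgroup_dvd_card
        ((IsPGroup.of_card c).to_le (zpowers_le.2 a.2)) (zpowers_ne_bot.2 fun k => a1 (Subtype.ext k)))
      have k : (a : S) * x.1.1 * (a : S)⁻¹ = x.1.1 := congrArg (fun t => t.1.1) e
      refine x.2 ⟨x.1.2, ?_⟩
      have : x.1.1 ∈ 𝐂(zpowers (a : S)) := by
        rw [cent_zpowers]; exact mem_cent1.2 (mul_inv_eq_iff_eq_mul.1 k).symm
      exact mem_cent1.2 (BG.mem_cent.1 this _ ((zpowers_le.2 hb)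
        ((f9_eq o (zpowers_le.2 a.2 hb) ob).ge (mem_zpowers _)))).symm
    have := Fintype.ofFinite P
    have h2 : Nat.card X = Nat.card P - Nat.card ↥(P ⊓ 𝐂[u ^ 3]) := by
      rw [← Core.card_subgroupOf_of_le (inf_le_left : P ⊓ 𝐂[u ^ 3] ≤ P), Nat.card_eq_fintype_card (α := P), Nat.card_eq_fintype_card
        (α := (P ⊓ 𝐂[u ^ 3]).subgroupOf P), ← Fintype.card_subtype_compl, ← Nat.card_eq_fintype_card]
      rfl
    rw [h2, c] at h1
    exact ((Nat.modEq_iff_dvd' (card_le_of_le inf_le_left)).2 h1).symm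

/-- `Q = zpowers u` is a Sylow 3-subgroup, `y = u ^ 3`, `C = 𝐂[y]`.  `5 ∣ |C|` (the 3-part of an element of order 15 generates a
conjugate of `zpowers y`).  Frattini-free form: let `R` be a Sylow 5-subgroup of `C`; `C ⊓ 𝐍(Q) ≤ 𝐂(Q)` (an automorphism of `Z₉` of
order prime to 3 fixing `y` is trivial), Burnside gives a normal 3-complement `D` of `C`
(`cyclic_pdiv_normal_complement`-like: `MonoidHom.ker_transferSylow_isComplement'`), and `Syl.exists_inv` a `u`-invariant Sylow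
5-subgroup of `D`. -/
theorem f9_syl (h9 : ¬ 27 ∣ Nat.card S) (o : orderOf u = 9) (h15 : 15 ∈ sp S) :
    ∃ R, Syl 5 R 𝐂[u ^ 3] ∧ R ≠ ⊥ ∧ u ∈ 𝐍(R) := by
  have : Fact (Nat.Prime 5) := ⟨by decide⟩
  have uC : u ∈ 𝐂[u ^ 3] := mem_cent1.2 (Commute.self_pow u 3)
  have hQ := f9_Q h9 o uC
  have d5 : 5 ∣ Nat.card 𝐂[u ^ 3] := by
    obtain ⟨x, ox⟩ := h15
    obtain ⟨g, -, e⟩ := f9_conj h9 o (mem_top u) (mem_top (x ^ 5)) (by rw [orderOf_pow' x (by decide), ox]; decide)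
    have m : g * x ^ 3 * g⁻¹ ∈ 𝐂[u ^ 3] := by
      rw [← cent_zpowers, ← e, cent_zpowers]
      exact mem_cent1.2 (by group)
    have := orderOf_dvd_natCard (⟨_, m⟩ : 𝐂[u ^ 3])
    rwa [← orderOf_coe, show orderOf (g * x ^ 3 * g⁻¹) = 5 from ((MulAut.conj g).orderOf_eq _).trans
      (by rw [orderOf_pow' x (by decide), ox]; decide)] at this
  have sd := Burnside_normal_complement hQ (Syl.le_of_forall fun q hq _ => by
    have := Fact.mk hq
    by_cases q3 : q = 3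
    · subst q3
      exact ⟨_, hQ.to_norm, abelian_iff.1 inferInstance⟩
    obtain ⟨T, hT⟩ := Syl.exists q (𝐂[u ^ 3] ⊓ 𝐍(zpowers u))
    refine ⟨T, hT, fun g hg => ?_⟩
    obtain ⟨g1, g2⟩ := hT.le hg
    obtain ⟨k, hk⟩ := mem_zpowers_iff.1 ((mem_normalizer_iff.1 g2 u).1 (mem_zpowers u))
    have e3 : u ^ (k * 3) = u ^ (3 : ℤ) := by
      rw [zpow_mul, hk, conj_zpow, zpow_ofNat, mem_cent1.1 g1, mul_inv_cancel_right]
    rw [zpow_eq_zpow_iff_modEq, o] at e3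
    have e9 : u ^ (k * k * k) = u ^ (1 : ℤ) := by
      rw [zpow_eq_zpow_iff_modEq, o]
      obtain ⟨t, ht⟩ := e3.dvd
      obtain rfl : k = 1 - 3 * t := by omega
      exact (Int.modEq_iff_dvd.2 ⟨t - 3 * t ^ 2 + 3 * t ^ 3, by push_cast; ring⟩)
    have c3 : g ^ 3 ∈ 𝐂[u] := by
      have a : ∀ j : ℤ, g * u ^ j * g⁻¹ = u ^ (k * j) := fun j => by rw [zpow_mul, hk, conj_zpow]
      have b : g * (g * (g * u ^ (1 : ℤ) * g⁻¹) * g⁻¹) * g⁻¹ = u ^ (1 : ℤ) := by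
        rw [a, a, a, mul_one, ← mul_assoc, e9]
      rw [zpow_one] at b
      exact mem_cent1.2 (by nth_rewrite 2 [← b]; simp only [pow_succ, pow_zero, one_mul, mul_assoc, inv_mul_cancel_left, inv_mul_cancel, mul_one])
    obtain ⟨j, hj⟩ := IsPGroup.iff_orderOf.1 hT.pgroup ⟨g, hg⟩
    rw [cent_zpowers]
    refine (zpowers_le.2 c3) (mem_zpowers_pow_iff.2 ?_)
    rw [← orderOf_coe] at hj
    exact hj ▸ Nat.Coprime.pow_right j ((Nat.coprime_primes Nat.prime_three hq).2 (Ne.symm q3)))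
  have hD := (Hall.of_sd sd (pcore_pi _ _) (by rw [compl_compl]; exact hQ.pi)).1
  obtain ⟨R, hR, n⟩ := Syl.exists_inv 5 sd.norm (PiGrp.coprime hQ.pi (pcore_pi _ _)) (.inl inferInstance)
  have := hR.of_Hall hD (by decide)
  exact ⟨R, this, this.ne_bot' d5, n (mem_zpowers u)⟩

/-- `R` from `f9_syl`; `f9_count` gives `|R| ≡ 1 mod 3`, so `|R| = 25` (`625 ∤ |S|`), `y = u ^ 3 ∈ D = 𝐂(R)`, `9 ∤ |D|` (a cyclic
group of order 9 in `D` gives 45), `R ≤ D`, `u ∈ 𝐍(D)`.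
Case `125 ∣ |D|`: `P` Sylow 5 in `D`, `|P| = 125`, `R ≤ P`.  Frattini in `H = D ⊔ zpowers u`: a Sylow 3-subgroup `W` of `H ⊓ 𝐍(P)` is
not in `D`; it is cyclic (conjugate into `zpowers u`); if `|W| = 3` then `W` is `H`-conjugate to `zpowers y ≤ D`.  So `W = zpowers u'`
has order 9, `u' ^ 3 ∈ D`, and `f9_count` fails for `|P ⊓ 𝐂[u' ^ 3]| ∈ {25, 125}`.
Case `125 ∤ |D|`: `125 ∣ |𝐍(R)|` (`R` is not Sylow in `S`), `zpowers y` is Sylow 3 in `D`, Frattini `𝐍(R) = D (𝐍(R) ⊓ 𝐍(zpowers y))`,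
`R ≤ D ⊓ 𝐍(zpowers y)`, so `125 ∣ |𝐍(zpowers y)|` and `125 ∣ |𝐂[y]|` (index `≤ 2`), against `|R| = 25`.
If `25 ∤ |S|` the contradiction is immediate; `25 ∣ |S| → 125 ∣ |S|` is assumed. -/
theorem f9_false (h3 : ¬ 27 ∣ Nat.card S) (h5 : ¬ 625 ∣ Nat.card S) (h5' : 25 ∣ Nat.card S → 125 ∣ Nat.card S)
    (h9 : 9 ∈ sp S) (h15 : 15 ∈ sp S) (hno : 45 ∉ sp S) : False := by
  have : Fact (Nat.Prime 5) := ⟨by decide⟩
  obtain ⟨u, o⟩ := h9
  obtain ⟨R, hR, R0, uH⟩ := f9_syl h3 o h15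
  have p5 : ∀ T : Subgroup S, IsPGroup 5 T → ∃ k ≤ 3, Nat.card T = 5 ^ k := fun T hT => by
    obtain ⟨k, hk⟩ := IsPGroup.iff_card.1 hT
    exact ⟨k, by_contra fun l => h5 ((pow_dvd_pow 5 (by omega : 4 ≤ k)).trans (hk ▸ card_subgroup_dvd_card T)), hk⟩
  have cR : Nat.card R = 25 := by
    have a := (f9_count hno o hR.pgroup uH).1
    have b := pgroup_dvd_card hR.pgroup R0
    obtain ⟨k, l, e⟩ := p5 R hR.pgroup
    rw [inf_eq_left.2 hR.le] at a
    rw [e] at a b ⊢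
    revert a b
    interval_cases k <;> decide
  have fin : ¬ 125 ∣ Nat.card 𝐂[u ^ 3] := fun d => absurd (cR ▸ f9_pw (k := 3) hR d) (by decide)
  have nD : Nml 𝐂(R) 𝐍(R) := ⟨cent_le_norm R, norm_cent le_rfl⟩
  have yD : u ^ 3 ∈ 𝐂(R) := le_cent1_iff.1 hR.le
  have RD : R ≤ 𝐂(R) := abelian_iff.1 (IsPGroup.isMulCommutative_of_card_eq_prime_sq (p := 5) cR)
  have hQ := f9_Q h3 o uH
  have hY : Syl 3 (zpowers (u ^ 3)) 𝐂(R) := by
    have a : Syl 3 (zpowers u ⊓ 𝐂(R)) 𝐂(R) := hQ.inf_nml nD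
    have l : zpowers (u ^ 3) ≤ zpowers u ⊓ 𝐂(R) := zpowers_le.2 ⟨npow_mem_zpowers u 3, yD⟩
    have d1 := card_dvd l
    have d2 : Nat.card ↥(zpowers u ⊓ 𝐂(R)) ∣ 3 ^ 2 := by
      have := card_dvd (inf_le_left : zpowers u ⊓ 𝐂(R) ≤ _)
      rwa [Nat.card_zpowers, o] at this
    obtain ⟨k, l2, e⟩ := (Nat.dvd_prime_pow Nat.prime_three).1 d2
    have k2 : k ≠ 2 := by
      rintro rfl
      have := eq_of_le_of_card_ge (inf_le_left : zpowers u ⊓ 𝐂(R) ≤ _) (by rw [e, Nat.card_zpowers, o]; decide)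
      exact R0 ((inf_eq_left.2 (le_cent1_iff.2 (this.ge (mem_zpowers u)).2)).symm.trans (f9_bot hno o hR.pgroup))
    rw [eq_of_le_of_card_ge l (by
      rw [e, Nat.card_zpowers, f9_ord o]; exact Nat.pow_le_pow_right (by decide) (by omega : k ≤ 1))]
    exact a
  have cY : Nat.card (zpowers (u ^ 3)) = 3 := by rw [Nat.card_zpowers, f9_ord o]
  by_cases hc : 125 ∣ Nat.card 𝐂(R)
  · obtain ⟨P, hP, RP⟩ := Syl.exists_ge hR.pgroup RD
    have cP : Nat.card P = 125 := by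
      have a := f9_pw (k := 3) hP hc
      obtain ⟨k, l, e⟩ := p5 P hP.pgroup
      rw [e] at a ⊢
      revert a
      interval_cases k <;> decide
    have d3 : 3 ∣ Nat.card ↥(𝐍(R) ⊓ 𝐍(P)) := by_contra fun k => by
      have a := Core.card_sup_dvd (N := 𝐂(R)) (H := 𝐍(R) ⊓ 𝐍(P)) (inf_le_left.trans nD.norm)
      have b := card_dvd hQ.le
      rw [sup_comm, hP.frattini nD, mul_comm] at a
      rw [Nat.card_zpowers, o] at b
      have c := (Nat.Coprime.pow_left 2 ((Nat.Prime.coprime_iff_not_dvd Nat.prime_three).2 k)).dvd_of_dvd_mul_right (b.trans a)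
      rw [← BG.card_mul_relIndex hY.le, cY] at c
      exact hY.not_dvd' (Nat.dvd_of_mul_dvd_mul_left (by decide : 0 < 3) c)
    obtain ⟨x, ⟨x1, x2⟩, ox⟩ := Core.exists_mem_orderOf_eq_prime Nat.prime_three d3
    obtain ⟨g, hg, e⟩ := f9_conj h3 o uH x1 ox
    have xD : x ∈ 𝐂(R) := (mem_normalizer_iff.1 (nD.norm hg) x).2 ((zpowers_le.2 yD) (e.le (mem_zpowers _)))
    have m := card_modEq_card_inf_centralizer (q := 3) (A := zpowers x)
      (IsPGroup.of_card (n := 1) (by rw [Nat.card_zpowers, ox]; decide)) (zpowers_le.2 x2)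
    rw [cent_zpowers, cP] at m
    have d25 := card_dvd (le_inf RP (le_cent1_iff.2 xD))
    obtain ⟨k, l, ek⟩ := p5 (P ⊓ 𝐂[x]) (hP.pgroup.to_le inf_le_left)
    have d := card_dvd (inf_le_right : P ⊓ 𝐂[x] ≤ _)
    rw [cR] at d25
    rw [ek] at m d25 d
    obtain rfl : k = 3 := by revert m d25; interval_cases k <;> decide
    refine fin ?_
    rwa [← cent_zpowers, ← e, cent_zpowers, ← conj_cent1, Core.card_map_conj]
  · have dH : 125 ∣ Nat.card 𝐍(R) := by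
      obtain ⟨P, hP, RP⟩ := Syl.exists_ge hR.pgroup (le_norm R)
      obtain ⟨k, l, e⟩ := p5 P hP.pgroup
      have a := card_dvd RP
      have b : k ≠ 2 := by
        rintro rfl
        obtain rfl := eq_of_le_of_card_ge RP (by rw [e, cR]; decide)
        have t : Syl 5 R ⊤ := Syl.of_norm (by rwa [top_inf_eq])
        exact absurd (cR ▸ f9_pw (k := 3) t (by rw [card_top]; exact h5' (cR ▸ card_subgroup_dvd_card R))) (by decide)
      rw [cR, e] at a
      obtain rfl : k = 3 := by revert a b; interval_cases k <;> decide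
      exact (show 125 ∣ Nat.card P by rw [e]; decide).trans (card_dvd hP.le)
    have a := Core.card_sup_mul_card_inf (N := 𝐂(R)) (H := 𝐍(R) ⊓ 𝐍(zpowers (u ^ 3))) (inf_le_left.trans nD.norm)
    rw [sup_comm, hY.frattini nD, inf_comm _ 𝐂(R), mul_comm _ (Nat.card 𝐂(R))] at a
    have b := card_dvd (le_inf RD (le_inf (le_norm R) ((hR.le.trans (cent_zpowers _).ge).trans (cent_le_norm _))))
    obtain ⟨t, ht⟩ := card_dvd RD
    rw [cR] at b ht
    have c := a ▸ mul_dvd_mul dH b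
    rw [ht, mul_comm 125, mul_assoc] at c
    have c2 := (Nat.Coprime.pow_left 3 ((Nat.Prime.coprime_iff_not_dvd (by decide : Nat.Prime 5)).2
      fun k => hc (ht ▸ mul_dvd_mul_left 25 k))).dvd_of_dvd_mul_left (Nat.dvd_of_mul_dvd_mul_left (by decide : 0 < 25) c)
    obtain ⟨T, hT⟩ := Syl.exists 5 (𝐍(R) ⊓ 𝐍(zpowers (u ^ 3)))
    have m := card_modEq_card_inf_centralizer hT.pgroup (hT.le.trans inf_le_right)
    have d := card_dvd (inf_le_left : zpowers (u ^ 3) ⊓ 𝐂(T) ≤ _)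
    rw [cY] at m d
    have e : Nat.card ↥(zpowers (u ^ 3) ⊓ 𝐂(T)) = 3 := ((Nat.dvd_prime Nat.prime_three).1 d).resolve_left fun k => by
      rw [k] at m; exact absurd m (by decide)
    have := (eq_of_le_of_card_ge (inf_le_left : zpowers (u ^ 3) ⊓ 𝐂(T) ≤ _) (by rw [e, cY])).ge (mem_zpowers _)
    exact fin ((f9_pw (k := 3) hT c2).trans (card_dvd (le_cent1_iff.2 this.2)))

end Cfsg.Lib.SPL
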