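import Cfsg.Agent.Lib.SPL.Def

/-!
# S3586: orbits of eigenvalues
-/

set_option autoImplicit false

namespace Cfsg.Lib.SPL

variable {A : Type*} [CommGroup A] [DecidableEq A] {n p o d e k r : ℕ} {Q : ℤ} {R : Multiset A} {a b : A}

omit [DecidableEq A] in
/-- `a ^ (Q ^ d - 1) = 1` from `h.eq`; `zpow_natAbs`-type lemma (`Int.natAbs_eq`, cases). -/
theorem Per.pow_w (h : Per Q a d) : a ^ w Q d = 1 := by
  have e : a ^ (Q ^ d - 1) = 1 := by rw [zpow_sub, h.eq, zpow_one, mul_inv_cancel]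
  unfold w
  rcases Int.natAbs_eq (Q ^ d - 1) with h1 | h1
  · rw [← zpow_natCast, ← h1, e]
  · rw [← zpow_natCast, ← neg_neg ((Q ^ d - 1).natAbs : ℤ), ← h1, zpow_neg, e, inv_one]

omit [DecidableEq A] in
theorem card_orb : (orb Q a d).card = d := by simp [orb]

omit [DecidableEq A] in
theorem Per.mem (h : Per Q a d) : a ∈ orb Q a d := Multiset.mem_map.2 ⟨0, Multiset.mem_range.2 h.pos, by simp⟩

omit [DecidableEq A] in
/-- induction on `d` (`Multiset.range_succ`, `Finset.sum_range_succ`, `zpow_add`) -/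
theorem prod_orb : (orb Q a d).prod = a ^ ∑ i ∈ Finset.range d, Q ^ i := by
  unfold orb
  induction d with
  | zero => simp
  | succ d ih => rw [Multiset.range_succ, Multiset.map_cons, Multiset.prod_cons, ih, Finset.sum_range_succ, zpow_add, mul_comm]

omit [DecidableEq A] in
theorem pow_pow_add (a : A) (Q : ℤ) (i j : ℕ) : (a ^ Q ^ i) ^ Q ^ j = a ^ Q ^ (i + j) := by
  rw [← zpow_mul, ← pow_add]

omit [DecidableEq A] in
theorem inj_iter (inj : Function.Injective fun a : A => a ^ Q) (i : ℕ) : Function.Injective fun a : A => a ^ Q ^ i := by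
  induction i with
  | zero => intro x y e; simpa using e
  | succ i ih =>
    intro x y e
    refine ih (inj ?_)
    simpa only [← zpow_mul, ← pow_succ] using e

omit [DecidableEq A] in
theorem Per.pow_mul (h : Per Q a d) (t : ℕ) : a ^ Q ^ (d * t) = a := by
  induction t with
  | zero => simp
  | succ t ih => rw [Nat.mul_succ, ← pow_pow_add, ih, h.eq]

omit [DecidableEq A] in
/-- `(a ^ Q ^ i) ^ Q ^ j = a ^ Q ^ (i + j)`; `x ↦ x ^ Q ^ i` is injective (iterate of `inj`). -/
theorem Per.of_mem (inj : Function.Injective fun a : A => a ^ Q) (h : Per Q a d) (hb : b ∈ orb Q a d) : Per Q b d := by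
  obtain ⟨i, -, rfl⟩ := Multiset.mem_map.1 hb
  refine ⟨h.pos, ?_, fun e e0 ed he => h.min e e0 ed (inj_iter inj i ?_)⟩
  · rw [pow_pow_add, add_comm, ← pow_pow_add, h.eq]
  · show (a ^ Q ^ e) ^ Q ^ i = a ^ Q ^ i
    rw [pow_pow_add, add_comm, ← pow_pow_add, he]

omit [DecidableEq A] in
/-- `a ^ Q ^ i = a ^ Q ^ j`, `i < j < d` gives `a ^ Q ^ (j - i) = a` by injectivity. -/
theorem Per.nodup (inj : Function.Injective fun a : A => a ^ Q) (h : Per Q a d) : (orb Q a d).Nodup := by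
  have key : ∀ i j, i < j → j < d → a ^ Q ^ i ≠ a ^ Q ^ j := fun i j ij jd e =>
    h.min (j - i) (by omega) (by omega) (inj_iter inj i (by
      show (a ^ Q ^ (j - i)) ^ Q ^ i = a ^ Q ^ i
      rw [pow_pow_add, Nat.sub_add_cancel ij.le, e]))
  refine Multiset.Nodup.map_on (fun i hi j hj e => ?_) (Multiset.nodup_range d)
  rw [Multiset.mem_range] at hi hj
  rcases lt_trichotomy i j with c | c | c
  · exact absurd e (key i j c hj)
  · exact c
  · exact absurd e.symm (key j i c hi)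

omit [DecidableEq A] in
/-- `a ^ Q ^ i = a ^ Q ^ (i % d)` -/
theorem Per.mem_orb (h : Per Q a d) (i : ℕ) : a ^ Q ^ i ∈ orb Q a d := by
  refine Multiset.mem_map.2 ⟨i % d, Multiset.mem_range.2 (Nat.mod_lt _ h.pos), ?_⟩
  conv_rhs => rw [← Nat.div_add_mod i d, ← pow_pow_add, h.pow_mul]

theorem w_pos (two : 2 ≤ Q.natAbs) (hd : 0 < d) : 0 < w Q d := by
  unfold w
  rw [Int.natAbs_pos, sub_ne_zero]
  intro e
  have := congrArg Int.natAbs e
  rw [Int.natAbs_pow, Int.natAbs_one] at this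
  have h2 : 2 ^ d ≤ Q.natAbs ^ d := Nat.pow_le_pow_left two d
  have h3 : 1 < 2 ^ d := Nat.one_lt_two_pow hd.ne'
  omega

/-- a prime dividing both `Q` and `Q ^ d - 1` divides 1 -/
theorem w_coprime (hp : p.Prime) (hQ : (p : ℤ) ∣ Q) (hd : 0 < d) : (w Q d).Coprime p := by
  rw [Nat.coprime_comm, hp.coprime_iff_not_dvd]
  intro hw
  have h1 : (p : ℤ) ∣ Q ^ d - 1 := Int.natCast_dvd.2 hw
  have h2 : (p : ℤ) ∣ 1 := by simpa using dvd_sub (dvd_pow hQ hd.ne') h1
  exact hp.one_lt.ne' (Nat.dvd_one.1 (Int.natCast_dvd_natCast.1 h2))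

theorem pow_dvd_lcm {q x y : ℕ} (hq : q.Prime) (d : q ^ k ∣ Nat.lcm x y) : q ^ k ∣ x ∨ q ^ k ∣ y := by
  rcases eq_or_ne x 0 with rfl | x0
  · exact Or.inl (dvd_zero _)
  rcases eq_or_ne y 0 with rfl | y0
  · exact Or.inr (dvd_zero _)
  rw [hq.pow_dvd_iff_le_factorization (Nat.lcm_ne_zero x0 y0), Nat.factorization_lcm x0 y0, Finsupp.sup_apply,
    le_sup_iff] at d
  rwa [hq.pow_dvd_iff_le_factorization x0, hq.pow_dvd_iff_le_factorization y0]

namespace Ev

variable (h : Ev n Q p o R)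
include h

/-- `Multiset.count_map_eq_count'` with `h.inj`, `h.frob`; induction on `i`. -/
theorem count_pow (a : A) (i : ℕ) : R.count (a ^ Q ^ i) = R.count a := by
  induction i with
  | zero => simp
  | succ i ih =>
    have := Multiset.count_map_eq_count' (fun x : A => x ^ Q) R h.inj (a ^ Q ^ i)
    rw [h.frob, ← zpow_mul, ← pow_succ] at this
    rw [this, ih]

theorem mem_pow (ha : a ∈ R) (i : ℕ) : a ^ Q ^ i ∈ R :=
  Multiset.count_pos.1 (h.count_pow a i ▸ Multiset.count_pos.2 ha)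

/-- pigeonhole for `i ↦ a ^ Q ^ i` into the finite set `R.toFinset`, injectivity, `Nat.find`. -/
theorem exists_per (ha : a ∈ R) : ∃ d, Per Q a d := by
  classical
  obtain ⟨i, j, ij, e⟩ := Finite.exists_ne_map_eq_of_infinite
    (fun i : ℕ => (⟨a ^ Q ^ i, Multiset.mem_toFinset.2 (h.mem_pow ha i)⟩ : R.toFinset))
  have e' : a ^ Q ^ i = a ^ Q ^ j := congrArg Subtype.val e
  have key : ∀ i j, i < j → a ^ Q ^ i = a ^ Q ^ j → ∃ d, 0 < d ∧ a ^ Q ^ d = a := fun i j ij e =>
    ⟨j - i, by omega, inj_iter h.inj i (by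
      show (a ^ Q ^ (j - i)) ^ Q ^ i = a ^ Q ^ i
      rw [pow_pow_add, Nat.sub_add_cancel ij.le, e])⟩
  have ex : ∃ d, 0 < d ∧ a ^ Q ^ d = a := by
    rcases lt_or_gt_of_ne ij with c | c
    · exact key i j c e'
    · exact key j i c e'.symm
  exact ⟨Nat.find ex, (Nat.find_spec ex).1, (Nat.find_spec ex).2, fun e e0 ed he => Nat.find_min ex ed ⟨e0, he⟩⟩

theorem count_orb (hd : Per Q a d) (x : A) :
    (R.count a • orb Q a d).count x = if x ∈ orb Q a d then R.count x else 0 := by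
  rw [Multiset.count_nsmul]
  split_ifs with c
  · rw [Multiset.count_eq_one_of_mem (hd.nodup h.inj) c, mul_one]
    obtain ⟨i, -, rfl⟩ := Multiset.mem_map.1 c
    exact (h.count_pow a i).symm
  · rw [Multiset.count_eq_zero_of_notMem c, mul_zero]

/-- `Multiset.le_iff_count`: on the orbit (`Nodup`) the count is `count a R` by `count_pow`. -/
theorem orb_le (hd : Per Q a d) : R.count a • orb Q a d ≤ R := by
  refine Multiset.le_iff_count.2 fun x => ?_
  rw [h.count_orb hd]
  split_ifs <;> omega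

/-- The two orbits are disjoint: a common element `a ^ Q ^ i = b ^ Q ^ j` gives `b = b ^ Q ^ (e * t) = a ^ Q ^ (..) ∈ orb Q a d`
(`Per.mem_orb`).  Then `Multiset.le_iff_count`. -/
theorem orb_le2 (hd : Per Q a d) (he : Per Q b e) (hb : b ∉ orb Q a d) :
    R.count a • orb Q a d + R.count b • orb Q b e ≤ R := by
  refine Multiset.le_iff_count.2 fun x => ?_
  rw [Multiset.count_add, h.count_orb hd, h.count_orb he]
  split_ifs with c1 c2
  · exfalso
    obtain ⟨i, -, e1⟩ := Multiset.mem_map.1 c1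
    obtain ⟨j, hj, e2⟩ := Multiset.mem_map.1 c2
    rw [Multiset.mem_range] at hj
    have e3 : b = a ^ Q ^ (i + (e - j)) := by
      rw [← pow_pow_add, e1, ← e2, pow_pow_add, Nat.add_sub_cancel' hj.le, he.eq]
    exact hb (e3 ▸ hd.mem_orb _)
  all_goals omega

theorem mul_le (hd : Per Q a d) : R.count a * d ≤ n := by
  simpa [card_orb, h.card] using Multiset.card_le_card (h.orb_le hd)

theorem add_le (hd : Per Q a d) (he : Per Q b e) (hb : b ∉ orb Q a d) : R.count a * d + R.count b * e ≤ n := by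
  simpa [card_orb, h.card] using Multiset.card_le_card (h.orb_le2 hd he hb)

/-- Choose periods `d a` (`exists_per`), `m` = the `lcm` of the `w Q (d a)`, `a ∈ R` (positive, prime to `p`); all `a ^ m = 1`. -/
theorem exists_m : ∃ m, m.Coprime p ∧ (∀ a ∈ R, a ^ m = 1) ∧
    ∀ r, IsPrimePow r → r ∣ m → ∃ a ∈ R, ∃ d, Per Q a d ∧ r ∣ w Q d := by
  classical
  choose! f hf using fun a (ha : a ∈ R) => h.exists_per ha
  refine ⟨R.toFinset.lcm fun a => w Q (f a), ?_, fun a ha => ?_, fun r hr d => ?_⟩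
  · refine Nat.Coprime.of_dvd_left (Finset.lcm_dvd fun a ha => Finset.dvd_prod_of_mem (fun a => w Q (f a)) ha)
      (Nat.Coprime.prod_left fun a ha => w_coprime h.hp h.hQ (hf a (Multiset.mem_toFinset.1 ha)).pos)
  · obtain ⟨c, hc⟩ := Finset.dvd_lcm (f := fun a => w Q (f a)) (Multiset.mem_toFinset.2 ha)
    rw [hc, pow_mul, (hf a ha).pow_w, one_pow]
  · have key : ∀ s : Finset A, r ∣ s.lcm (fun a => w Q (f a)) → ∃ a ∈ s, r ∣ w Q (f a) := by
      intro s
      induction s using Finset.induction_on with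
      | empty => intro d; exact absurd (Nat.dvd_one.1 (by simpa using d)) hr.ne_one
      | insert x s _ ih =>
        intro d
        rw [Finset.lcm_insert] at d
        obtain ⟨q, k, hq, k0, rfl⟩ := (isPrimePow_nat_iff r).1 hr
        rcases pow_dvd_lcm hq d with d | d
        · exact ⟨x, Finset.mem_insert_self _ _, d⟩
        · obtain ⟨y, hy, d⟩ := ih d
          exact ⟨y, Finset.mem_insert_of_mem hy, d⟩
    obtain ⟨x, hx, d⟩ := key _ d
    exact ⟨x, Multiset.mem_toFinset.1 hx, f x, hf x (Multiset.mem_toFinset.1 hx), d⟩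

/-- `h.ord m n` (`count ≤ n ≤ p ^ n`) with `m` from `exists_m`, `Nat.Coprime.dvd_of_dvd_mul_right`. -/
theorem exists_eig (d : r ∣ o) (hr : IsPrimePow r) (c : r.Coprime p) : ∃ a ∈ R, ∃ d, Per Q a d ∧ r ∣ w Q d := by
  obtain ⟨m, -, h1, h2⟩ := h.exists_m
  have o1 := h.ord m n (fun a ha b hb => by rw [h1 a ha, h1 b hb]) fun a _ =>
    ((Multiset.count_le_card a R).trans_eq h.card).trans (Nat.lt_pow_self h.hp.one_lt).le
  exact h2 r hr ((c.pow_right n).dvd_of_dvd_mul_right (d.trans o1))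

/-- otherwise `p ^ (k + 1) ∣ m * p ^ k` (`h.ord m k`), so `p ∣ m`. -/
theorem exists_mult (d : p ^ (k + 1) ∣ o) : ∃ b ∈ R, p ^ k < R.count b := by
  by_contra hc
  push Not at hc
  obtain ⟨m, c, h1, -⟩ := h.exists_m
  have o1 := d.trans (h.ord m k (fun a ha b hb => by rw [h1 a ha, h1 b hb]) hc)
  rw [pow_succ', Nat.mul_dvd_mul_iff_right (pow_pos h.hp.pos k)] at o1
  exact (h.hp.coprime_iff_not_dvd.1 c.symm) o1

end Ev

end Cfsg.Lib.SPL
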