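import Cfsg.Agent.Lib.SPL.Def
import Cfsg.Agent.Lib.Tits.Index
import Cfsg.Agent.Lib.McL.Basic
import Cfsg.Agent.S1663

/-!
# S3586: elements of the concrete groups `²F₄(2)'`, `McL`, `M₂₂`
-/

set_option autoImplicit false

namespace Cfsg.Lib.SPL

open Subgroup Cfsg.Lib.BG Cfsg.Lib.Spec

variable {S : Type*} [Group S]

/-- A word in the generators of the Sylow 2-subgroup `U0 ≤ TT` of `Lib/Tits/Index` (or any element of `TT`) of order 16: check
`g ^ 16 = 1`, `g ^ 8 ≠ 1` on the codes (`R`, `RG`, `decide +kernel`), `orderOf_eq_prime_pow`.  Also `card`: `card_TT`. -/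
theorem tits16 (h : Lie.IsoTits S) : 16 ∈ sp S ∧ Nat.card S = 17971200 := by
  obtain ⟨e⟩ := h
  refine ⟨?_, (Nat.card_congr e.toEquiv).trans Tits.card_TT⟩
  have m : Tits.W [7] * Tits.W [0, 2] ∈ Tits.TT :=
    Tits.U0_le_TT (mul_mem (Tits.mem_cl (by simp [Tits.U0w])) (Tits.mem_cl (by simp [Tits.U0w])))
  have r1 := Tits.E.mf (Tits.RW [7]) (Tits.RW [0, 2])
  have r2 := Tits.E.mf r1 r1
  have r4 := Tits.E.mf r2 r2
  have r8 := Tits.E.mf r4 r4
  have e1 := Tits.E.eq (Tits.E.mf r8 r8) Tits.E.one (by decide +kernel)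
  have e2 := Tits.E.ne r8 Tits.E.one (by decide +kernel)
  generalize Tits.W [7] * Tits.W [0, 2] = g at e1 e2 m
  simp only [← pow_two, ← pow_mul] at e1 e2
  have o : orderOf g = 16 := orderOf_eq_prime_pow (p := 2) (n := 3) e2 e1
  exact ⟨e.symm ⟨g, m⟩, (orderOf_injective (Tits.TT.subtype.comp e.toMonoidHom)
    (Tits.TT.subtype_injective.comp e.injective) _).symm.trans (by simpa using o)⟩

/-- A word of order 14 (or 30) in the generators of the permutation model of `Lib/McL/Basic` (search by script), `decide +kernel`. -/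
theorem mcl14 (h : Spor.IsoMcL S) : 14 ∈ sp S ∨ 30 ∈ sp S := by
  obtain ⟨e⟩ := h
  obtain ⟨x, hx, o⟩ := Core.exists_mem_orderOf_eq_prime (p := 7) (by norm_num)
    (show 7 ∣ _ by rw [McL.card_k]; norm_num)
  have := mul_mem_sp_of_commute (G := McL.H) (x := ⟨_, McL.zz_mem_H⟩) (y := ⟨x, McL.k_le hx⟩)
    (Subtype.ext (McL.comm_zz x hx).symm) (by rw [orderOf_mk, orderOf_mk, McL.orderOf_zz, o]; norm_num)
  rw [orderOf_mk, orderOf_mk, McL.orderOf_zz, o] at this
  exact .inl (sp_congr (e.trans McL.hEquiv.symm) ▸ this)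

theorem frob_aux [Finite S] {a b c y : S} (ha : a * a = 1) (hb : b * b = 1) (hc : c * c = 1) (ab : a * b = b * a)
    (ac : a * c = c * a) (bc : b * c = c * b) (ya : y * a = b * y) (yb : y * b = c * y) (yc : y * c = a * b * y) (h : a ≠ 1) :
    ∃ T : Subgroup S, IsPGroup 2 T ∧ T ≠ ⊥ ∧ y ∈ 𝐍(T) := by
  have m : ∀ v ∈ [a, b, c], v ∈ Tits.cl [a, b, c] := fun _ => Tits.mem_cl
  have p : Tits.PC [a, b, c] := by
    refine ⟨⟨⟨trivial, hc ▸ one_mem _, by simp⟩, hb ▸ one_mem _, ?_⟩, ha ▸ one_mem _, ?_⟩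
    · simpa [mul_assoc, ← bc] using Tits.mem_cl (l := [c]) (g := c) (by simp)
    · simpa [mul_assoc, ← ab, ← ac] using
        And.intro (Tits.mem_cl (l := [b, c]) (g := b) (by simp)) (Tits.mem_cl (l := [b, c]) (g := c) (by simp))
  refine ⟨_, IsPGroup.of_card_dvd_pow p.card_dvd, ne_bot_of_mem (m a (by simp)) h,
    norm_of_conj_eq (eq_of_le_of_card_le ?_ (Transfer.card_conj y _).ge)⟩
  rintro _ ⟨v, hv, rfl⟩
  refine Tits.conj_mem_of_cl (w := y) ?_ hv
  simpa [ya, yb, yc] using And.intro (m b (by simp)) (And.intro (m c (by simp)) (mul_mem (m a (by simp)) (m b (by simp))))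

/-- S1663, then an explicit subgroup `2³ : 7` of `M₂₂` (in the stabilizer `2³ : L₃(2)` of an octad avoiding the two fixed points):
`y` of order 7 and an involution `t` such that `T = closure {t, y t y⁻¹, y² t y⁻²}` is elementary abelian and `y`-invariant
(permutations of `Fin 24` as words in the generators used in `Lib/Mathieu`). -/
theorem m22_frob [Finite S] (h : IsSimpleGroup S) (c : Nat.card S = 443520) :
    ∃ (T : Subgroup S) (y : S), IsPGroup 2 T ∧ T ≠ ⊥ ∧ y ∈ 𝐍(T) ∧ orderOf y = 7 := by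
  obtain ⟨e1⟩ := Cfsg.Agent.S1663.result (G := S) ⟨h, c⟩
  obtain ⟨e2⟩ := Cfsg.Agent.S1663.result (G := Mathieu.m22) ⟨Mathieu.simple_m22, Mathieu.card_m22⟩
  have e := e2.trans e1.symm
  obtain ⟨a, ma, ra⟩ := Mathieu.mem22.exists (c := 978084048986100790920862552845227232) (by decide +kernel)
  obtain ⟨b, mb, rb⟩ := Mathieu.mem22.exists (c := 984728318097572058002623567840450592) (by decide +kernel)
  obtain ⟨d, md, rd⟩ := Mathieu.mem22.exists (c := 977718725454645408129497518449151008) (by decide +kernel)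
  obtain ⟨y, my, ry⟩ := Mathieu.mem22.exists (c := 982128882788073665598439519848829312) (by decide +kernel)
  have k : ∀ {g g' : M24} {C D : ℕ}, Mathieu.R g C → Mathieu.R g' D → C = D → g = g' := fun p q r => (p.eq_iff q).2 r
  obtain ⟨T, h1, h2, h3⟩ := frob_aux (S := Mathieu.m22) (a := ⟨a, ma⟩) (b := ⟨b, mb⟩) (c := ⟨d, md⟩) (y := ⟨y, my⟩)
    (Subtype.ext (k (ra.mulT ra) .one (by decide +kernel))) (Subtype.ext (k (rb.mulT rb) .one (by decide +kernel)))
    (Subtype.ext (k (rd.mulT rd) .one (by decide +kernel))) (Subtype.ext (k (ra.mulT rb) (rb.mulT ra) (by decide +kernel)))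
    (Subtype.ext (k (ra.mulT rd) (rd.mulT ra) (by decide +kernel))) (Subtype.ext (k (rb.mulT rd) (rd.mulT rb) (by decide +kernel)))
    (Subtype.ext (k (ry.mulT ra) (rb.mulT ry) (by decide +kernel))) (Subtype.ext (k (ry.mulT rb) (rd.mulT ry) (by decide +kernel)))
    (Subtype.ext (k (ry.mulT rd) ((ra.mulT rb).mulT ry) (by decide +kernel)))
    fun q => absurd (ra.eq_one_iff.1 (congrArg Subtype.val q)) (by decide +kernel)
  refine ⟨T.map e.toMonoidHom, e ⟨y, my⟩, h1.map _, mt (map_eq_bot_iff_of_injective _ e.injective).1 h2,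
    le_normalizer_map _ ⟨_, h3, rfl⟩, ?_⟩
  rw [e.orderOf_eq, orderOf_mk]
  exact (ry.orderOf_eq_prime (by norm_num)).2 ⟨by decide +kernel, by decide +kernel⟩

end Cfsg.Lib.SPL
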