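import Cfsg.Agent.Lib.SPL.Def

/-!
# S3586: `L = U₆(2)`, the action on the centre of the kernel (helper17)
-/

set_option autoImplicit false

namespace Cfsg.Lib.SPL

open Subgroup Cfsg.Lib.BG Cfsg.Lib.Spec

variable {G X : Type*} [Group G] [Finite G] [Group X] {f : G →* X} {p k : ℕ}

theorem Sp.no30 (h : Sp G) {a b c : G} (ab : Commute a b) (ac : Commute a c) (bc : Commute b c) (d2 : 2 ∣ orderOf a)
    (d3 : 3 ∣ orderOf b) (d5 : 5 ∣ orderOf c) : False := by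
  have e := Commute.orderOf_mul_eq_mul_orderOf_of_coprime (bc.pow_pow (orderOf b / 3) (orderOf c / 5))
  rw [orderOf_pow_orderOf_div (orderOf_pos b).ne' d3, orderOf_pow_orderOf_div (orderOf_pos c).ne' d5] at e
  exact h.comm ((ab.pow_right _).mul_right (ac.pow_right _)).eq (a := 2) (b := 3 * 5) d2 (e (by decide)).symm.dvd
    (by decide) (by decide)

theorem Sp.exists_fix (h : Sp G) (hp : p.Prime) (p2 : p ≠ 2) (n : p ^ k ∉ om) {U A : Subgroup G} (h0 : U ≠ ⊥) (hA : A ≤ 𝐍(U))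
    (d : p ^ k ∣ Nat.card A) : ∃ g ∈ A, orderOf g = p ∧ U ⊓ 𝐂[g] ≠ ⊥ := by
  have := Fact.mk hp
  by_contra! q
  obtain ⟨T, hT⟩ := Syl.exists p A
  have sr : SemiReg U T := fun x hx x1 => by
    obtain ⟨y, hy, oy⟩ := Core.exists_mem_orderOf_eq_prime hp (pgroup_dvd_card (hT.pgroup.to_le (zpowers_le.2 hx))
      (zpowers_ne_bot.2 x1))
    exact eq_bot_mono (q y (hT.le (zpowers_le.2 hx hy)) oy) (inf_le_inf_left _ ((cent_zpowers x).ge.trans (cent_le_cent1 hy)))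
  have c := (Frobenius.cyclic_or_quaternion_of_semiReg h0 (hT.le.trans hA) sr hT.pgroup).resolve_right fun q => p2 q.1
  rw [← card_mul_relIndex hT.le] at d
  exact h.not_mem n (sp_subgroup T (mem_sp_of_isCyclic.2
    (((hp.coprime_iff_not_dvd.2 hT.not_dvd').pow_left k).dvd_of_dvd_mul_right d)))

theorem dvd_ord_ker (hp : p.Prime) (hK : IsPGroup p f.ker) {v : G} (hv : v ∈ f.ker) (v1 : v ≠ 1) : p ∣ orderOf v := by
  have := Fact.mk hp
  rw [← Nat.card_zpowers]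
  exact pgroup_dvd_card (hK.to_le (zpowers_le.2 hv)) (zpowers_ne_bot.2 v1)

theorem ord_map_ker {q : ℕ} (hp : p.Prime) (hq : q.Prime) (ne : p ≠ q) (hK : IsPGroup p f.ker) {g : G} (o : orderOf g = q) :
    orderOf (f g) = q := by
  refine ((Nat.dvd_prime hq).1 (o ▸ orderOf_map_dvd f g)).resolve_left fun e => ne ?_
  refine (Nat.prime_dvd_prime_iff_eq hp hq).1 (o ▸ dvd_ord_ker hp hK (orderOf_eq_one_iff.1 e) fun g1 => hq.one_lt.ne' ?_)
  rw [← o, g1, orderOf_one]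

section

variable {V : Subgroup G} {φ : X →* MulAut V} (e : ∀ g (v : V), (φ (f g) v : G) = g * v * g⁻¹)
include e

omit [Finite G] in
theorem fix_iff {g : G} {v : V} : φ (f g) v = v ↔ Commute g v := by
  rw [← Subtype.val_inj, e, mul_inv_eq_iff_eq_mul]
  rfl

variable (h : Sp G) (hV : V ≤ f.ker) (L : ∀ x : X, orderOf x = 5 → ∃ y, f y = x ∧ orderOf y = 5 ∧ 𝐂[x] ≤ 𝐂[y].map f)
include h hV L

theorem inv3' [IsMulCommutative V] (hK : IsPGroup 3 f.ker) {u x : X} (ou : orderOf u = 2) (ox : orderOf x = 5) (c : Commute u x)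
    (v : V) (hv : φ x v = v) : φ u v = v⁻¹ := by
  obtain ⟨y, rfl, oy, l⟩ := L x ox
  obtain ⟨t, ht, rfl⟩ := l (mem_cent1.2 c.eq)
  refine eq_inv_of_mul_eq_one_right (by_contra fun w1 => ?_)
  have h1 : φ (f y) (v * φ (f t) v) = v * φ (f t) v := by
    rw [map_mul, hv, ← MulAut.mul_apply, ← map_mul, ← c.eq, map_mul, MulAut.mul_apply, hv]
  have h2 : φ (f t) (v * φ (f t) v) = v * φ (f t) v := by
    rw [map_mul, ← MulAut.mul_apply, ← map_mul, ← pow_two, ← ou, pow_orderOf_eq_one, map_one, MulAut.one_apply]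
    exact mul_comm' _ _
  exact h.no30 ((fix_iff e).1 h2) (mem_cent1.1 ht) ((fix_iff e).1 h1).symm (ou ▸ orderOf_map_dvd f t)
    (dvd_ord_ker Nat.prime_three hK (hV (Subtype.prop _)) fun q => w1 (Subtype.ext q)) oy.symm.dvd

theorem inv2' (hK : IsPGroup 2 f.ker) {u x : X} (ou : orderOf u = 2) (ox : orderOf x = 5) (c : Commute u x)
    (v : V) (hv : φ x v = v) : φ u v = v⁻¹ := by
  obtain ⟨y, rfl, oy, l⟩ := L x ox
  obtain ⟨t, ht, rfl⟩ := l (mem_cent1.2 c.eq)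
  have k : ∀ g, Commute g y → f g = f t → g * g = 1 := fun g cg q => by_contra fun g1 => by
    have d := dvd_ord_ker Nat.prime_two hK (v := g ^ 2) (by
      rw [MonoidHom.mem_ker, map_pow, q, ← ou, pow_orderOf_eq_one]) (by rwa [pow_two])
    have d2 : 2 ∣ orderOf g := ou ▸ q ▸ orderOf_map_dvd f g
    rw [orderOf_pow_of_dvd two_ne_zero d2] at d
    exact h.comm cg.eq (a := 4) (b := 5) (Nat.mul_dvd_of_dvd_div d2 d) oy.symm.dvd (by decide) (by decide)
  have k1 := k t (mem_cent1.1 ht) rfl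
  have k2 := k (t * v) (Commute.mul_left (mem_cent1.1 ht) ((fix_iff e).1 hv).symm) (by
    rw [map_mul, MonoidHom.mem_ker.1 (hV v.2), mul_one])
  refine Subtype.ext ?_
  rw [e, ← eq_inv_of_mul_eq_one_left k1, coe_inv]
  exact eq_inv_of_mul_eq_one_left (by rw [← k2, mul_assoc (t * v)])

theorem b3' (hf : Function.Surjective f) (h0 : V ≠ ⊥) (hK : IsPGroup 2 f.ker) (R : Subgroup X) (c : Nat.card R = 25) :
    ¬ 27 ∣ Nat.card 𝐂(R) := fun d => by
  have nV : ∀ A : Subgroup G, A ≤ 𝐍(V) := fun A => le_norm_iff.2 fun a _ v hv => e a ⟨v, hv⟩ ▸ Subtype.prop _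
  obtain ⟨b, hb, ob, b0⟩ := h.exists_fix (k := 3) Nat.prime_three (by decide) (by decide) h0 (nV (𝐂(R).comap f))
    (by rw [Core.card_comap_of_surjective hf]; exact d.mul_right _)
  obtain ⟨g, hg, og, g0⟩ := h.exists_fix (k := 2) Nat.prime_five (by decide) (by decide) b0 (A := R.comap f)
    (le_norm_iff.2 fun a ha v hv => ⟨conj_mem_of_norm (nV ⊤ (mem_top a)) hv.1, by
      have h1 := (fix_iff e (g := b) (v := ⟨v, hv.1⟩)).2 (mem_cent1.1 hv.2).symm
      have h2 := (fix_iff e (g := b) (v := φ (f a) ⟨v, hv.1⟩)).1 (by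
        rw [← MulAut.mul_apply, ← map_mul, ← mem_cent.1 hb _ ha, map_mul, MulAut.mul_apply, h1])
      rw [e] at h2
      exact mem_cent1.2 h2.eq.symm⟩)
    (by rw [Core.card_comap_of_surjective hf, c]; exact dvd_mul_right _ _)
  obtain ⟨v, ⟨⟨vV, vb⟩, vg⟩, v1⟩ := exists_ne_one g0
  obtain ⟨y, ey, oy, l⟩ := L _ (ord_map_ker Nat.prime_two Nat.prime_five (by decide) hK og)
  obtain ⟨t, ht, et⟩ := l (mem_cent1.2 (mem_cent.1 hb _ hg).symm)
  have h1 := (fix_iff e (g := b) (v := ⟨v, vV⟩)).2 (mem_cent1.1 vb).symm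
  have h2 := (fix_iff e (g := g) (v := ⟨v, vV⟩)).2 (mem_cent1.1 vg).symm
  rw [← et, fix_iff e] at h1
  rw [← ey, fix_iff e] at h2
  exact h.no30 h1.symm h2.symm (mem_cent1.1 ht) (dvd_ord_ker Nat.prime_two hK (hV vV) v1)
    (ord_map_ker Nat.prime_two Nat.prime_three (by decide) hK ob ▸ et ▸ orderOf_map_dvd f t) oy.symm.dvd

omit L in
theorem inj' (h0 : V ≠ ⊥) (n7 : ¬ 7 ∣ Nat.card f.ker) (d7 : 7 ∣ Nat.card G) : φ.ker ≠ ⊤ := fun q => by
  have := Fact.mk Nat.prime_seven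
  obtain ⟨g, og⟩ := exists_prime_orderOf_dvd_card' 7 d7
  obtain ⟨v, hv, v1⟩ := exists_ne_one h0
  obtain ⟨r, hr, d⟩ := Nat.exists_prime_and_dvd (mt orderOf_eq_one_iff.1 v1)
  have c := (fix_iff e (g := g) (v := ⟨v, hv⟩)).1 (by rw [MonoidHom.mem_ker.1 (q.ge (mem_top (f g))), MulAut.one_apply])
  refine h.comm c.eq og.symm.dvd d ((Nat.coprime_primes Nat.prime_seven hr).2 fun z => n7 ?_) fun m => ?_
  · exact z ▸ d.trans (f.ker.orderOf_dvd_natCard (hV hv))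
  · have := om_le m
    have := hr.two_le
    obtain rfl : r = 2 := by omega
    exact absurd m (by decide)

end

end Cfsg.Lib.SPL
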