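import Cfsg.Agent.Lib.SPL.Orb

/-!
# S3586: bounds for element orders from the eigenvalues, I
-/

set_option autoImplicit false

namespace Cfsg.Lib.SPL.Ev

variable {A : Type*} [CommGroup A] [DecidableEq A] {n p o k r s : ℕ} {Q : ℤ} {R : Multiset A} (h : Ev n Q p o R)
include h

omit h [DecidableEq A] in
theorem ua_uniq {a : A} {d e : ℕ} (hd : Per Q a d) (he : Per Q a e) : d = e :=
  le_antisymm (not_lt.1 fun c => hd.min e he.pos c he.eq) (not_lt.1 fun c => he.min d hd.pos c hd.eq)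

theorem ua_le {a : A} {d : ℕ} (ha : a ∈ R) (hd : Per Q a d) : d ≤ n :=
  (Nat.le_mul_of_pos_left d (Multiset.count_pos.2 ha)).trans (h.mul_le hd)

/-- `exists_eig`, `mul_le`. -/
theorem u1 (d : r ∣ o) (hr : IsPrimePow r) (c : r.Coprime p) : ∃ d ≤ n, 0 < d ∧ r ∣ w Q d := by
  obtain ⟨a, ha, e, he, k⟩ := h.exists_eig d hr c
  exact ⟨e, h.ua_le ha he, he.pos, k⟩

/-- `exists_eig` twice; `b ∈ orb Q a d` gives `Per Q b d` (`Per.of_mem`), periods are unique; else `add_le`. -/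
theorem u2 (d : r ∣ o) (d' : s ∣ o) (hr : IsPrimePow r) (hs : IsPrimePow s) (c : r.Coprime p) (c' : s.Coprime p) :
    ∃ d ≤ n, ∃ e ≤ n, 0 < d ∧ 0 < e ∧ r ∣ w Q d ∧ s ∣ w Q e ∧ (d = e ∨ d + e ≤ n) := by
  obtain ⟨a, ha, e, he, k⟩ := h.exists_eig d hr c
  obtain ⟨b, hb, f, hf, k'⟩ := h.exists_eig d' hs c'
  refine ⟨e, h.ua_le ha he, f, h.ua_le hb hf, he.pos, hf.pos, k, k', ?_⟩
  by_cases m : b ∈ orb Q a e
  · exact .inl (ua_uniq (he.of_mem h.inj m) hf)
  · exact .inr ((Nat.add_le_add (Nat.le_mul_of_pos_left e (Multiset.count_pos.2 ha))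
      (Nat.le_mul_of_pos_left f (Multiset.count_pos.2 hb))).trans (h.add_le he hf m))

/-- `exists_mult`, `Multiset.count_le_card`. -/
theorem u3 (d : p ^ (k + 1) ∣ o) : p ^ k < n := by
  obtain ⟨b, -, hb⟩ := h.exists_mult d
  exact hb.trans_le (h.card ▸ Multiset.count_le_card b R)

/-- `a, d` from `exists_eig`, `b` from `exists_mult`, `x = count b R ≥ p ^ k + 1 ≥ 2`.  If `a ∉ orb Q b e`: `add_le`.  Otherwise
`Per Q a e`, `d = e`, `x * d ≤ n`; for `d ≥ 2`, `d + x ≤ x * d`.  For `d = 1`: if `x < n` done; if `x = n` all members of `R` equal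
`b` (`Multiset.count_eq_card`), `h.ord 1 n` gives `r ∣ p ^ n`, so `r = 1`, not a prime power. -/
theorem u3' (d : p ^ (k + 1) ∣ o) (d' : r ∣ o) (hr : IsPrimePow r) (c : r.Coprime p) :
    ∃ d ≤ n, 0 < d ∧ r ∣ w Q d ∧ d + p ^ k + 1 ≤ n := by
  obtain ⟨a, ha, e, he, l⟩ := h.exists_eig d' hr c
  obtain ⟨b, hb, x⟩ := h.exists_mult d
  obtain ⟨f, hf⟩ := h.exists_per hb
  refine ⟨e, h.ua_le ha he, he.pos, l, ?_⟩
  have p0 : 1 ≤ p ^ k := Nat.pos_of_ne_zero (pow_ne_zero _ h.hp.ne_zero)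
  by_cases m : a ∈ orb Q b f
  · obtain rfl := ua_uniq (hf.of_mem h.inj m) he
    have t := h.mul_le hf
    rcases (show f = 1 ∨ 2 ≤ f by have := hf.pos; omega) with rfl | f2
    · by_contra g
      have e1 : ∀ y ∈ R, b = y := Multiset.count_eq_card.1 (by have := h.card; omega)
      have := d'.trans (h.ord 1 n (fun y hy z hz => by rw [← e1 y hy, ← e1 z hz]) fun y _ =>
        (h.card ▸ Multiset.count_le_card y R).trans (Nat.lt_pow_self h.hp.one_lt).le)
      rw [one_mul] at this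
      exact hr.ne_one ((c.pow_right n).eq_one_of_dvd this)
    · nlinarith
  · have t := h.add_le hf he m
    have := Nat.le_mul_of_pos_left e (Multiset.count_pos.2 ha)
    have := Nat.le_mul_of_pos_right (R.count b) hf.pos
    omega

/-- `a` from `exists_eig` has period `n` (`mul_le`), so `R = orb Q a n` (`orb_le`, cards; `count a R = 1`), `Nodup`, all counts
`≤ p ^ 0`.  `s = ∑ i < n, Q ^ i`, `a ^ s = 1` (`prod_orb`), `s * (Q - 1) = Q ^ n - 1` (`geom_sum_mul`), `s ≡ n mod (Q - 1)`, so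
`g = gcd n (w Q 1) = gcd |s| (w Q 1)` and `tn n Q = |s| / g =: m`; `|s| ∣ m * w Q 1`, so `a ^ (m * (Q - 1)) = 1` and
`(a ^ Q ^ i) ^ m = a ^ m` for all `i` (`Q - 1 ∣ Q ^ i - 1`).  `h.ord m 0`. -/
theorem u4 (d : r ∣ o) (hr : IsPrimePow r) (c : r.Coprime p) (k : ∀ d ≤ n, 0 < d → r ∣ w Q d → d = n) : o ∣ tn n Q := by
  obtain ⟨a, ha, e, he, l⟩ := h.exists_eig d hr c
  obtain rfl := k e (h.ua_le ha he) he.pos l
  have c1 : R.count a = 1 := le_antisymm (Nat.le_of_mul_le_mul_right ((h.mul_le he).trans (one_mul e).ge) he.pos)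
    (Multiset.count_pos.2 ha)
  have e1 : orb Q a e = R := Multiset.eq_of_le_of_card_le (by simpa [c1] using h.orb_le he) (by rw [card_orb, h.card])
  set s := ∑ i ∈ Finset.range e, Q ^ i with hs
  have s1 : a ^ s = 1 := by rw [← prod_orb, e1, h.prod]
  have w1 : w Q 1 = (Q - 1).natAbs := by rw [w, pow_one]
  have s2 : w Q e = s.natAbs * w Q 1 := by rw [w1, ← Int.natAbs_mul, geom_sum_mul, w]
  have s3 : Q - 1 ∣ s - e := by
    rw [hs, show (e : ℤ) = ∑ i ∈ Finset.range e, 1 ^ i by simp, ← Finset.sum_sub_distrib]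
    exact Finset.dvd_sum fun i _ => sub_dvd_pow_sub_pow Q 1 i
  have s4 : e.gcd (w Q 1) = s.natAbs.gcd (w Q 1) := by
    obtain ⟨t, ht⟩ := s3
    rw [w1, show s = e + (Q - 1) * t by linear_combination ht]
    exact (Int.gcd_add_mul_left_left (Q - 1) e t).symm
  have s5 : s ∣ tn e Q * (Q - 1) := by
    rw [← Int.natAbs_dvd_natAbs, Int.natAbs_mul, Int.natAbs_natCast, ← w1, tn, s2, mul_comm s.natAbs,
      Nat.mul_div_mul_left _ _ (w_pos h.two one_pos), s4, Nat.div_mul_right_comm (Nat.gcd_dvd_left _ _),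
      Nat.mul_div_assoc _ (Nat.gcd_dvd_right _ _)]
    exact dvd_mul_right _ _
  have s6 : ∀ y ∈ R, y ^ tn e Q = a ^ tn e Q := fun y hy => by
    rw [← e1] at hy
    obtain ⟨i, -, rfl⟩ := Multiset.mem_map.1 hy
    obtain ⟨t, ht⟩ := s5.trans (mul_dvd_mul_left _ (sub_dvd_pow_sub_pow Q 1 i))
    rw [← zpow_natCast, ← zpow_natCast, ← zpow_mul, show Q ^ i * tn e Q = tn e Q + s * t by
      rw [one_pow] at ht; linear_combination ht, zpow_add, zpow_mul, s1, one_zpow, mul_one]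
  simpa using h.ord (tn e Q) 0 (fun y hy z hz => (s6 y hy).trans (s6 z hz).symm) fun y _ =>
    e1 ▸ Multiset.nodup_iff_count_le_one.1 (he.nodup h.inj) y

end Cfsg.Lib.SPL.Ev
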